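import Mathlib

/-!
# Subnormal chains: basic calculus

`ChainFrom A l`: a strictly increasing chain of length `l` from `A` up to `⊤` with each term normal
in the next.  Pull back along surjections, split along a homomorphism, bounds by the order.
-/

set_option autoImplicit false
set_option linter.style.haveILetI false

namespace Cfsg.Agent.Lib.CompLen

open ArithmeticFunction

/-- A strict subnormal chain from `A` to the whole group, of length `l`. -/
inductive ChainFrom {X : Type*} [Group X] : Subgroup X → ℕ → Prop
  | top : ChainFrom ⊤ 0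
  | step {A B : Subgroup X} {n : ℕ} (hlt : A < B) (hn : ∀ b ∈ B, ∀ a ∈ A, b * a * b⁻¹ ∈ A)
      (h : ChainFrom B n) : ChainFrom A (n + 1)

variable {X Z : Type*} [Group X] [Group Z]

theorem ChainFrom.comap (f : X →* Z) (hf : Function.Surjective f) {A : Subgroup Z} {l : ℕ}
    (h : ChainFrom A l) : ChainFrom (A.comap f) l := by
  induction h with
  | top =>
    rw [Subgroup.comap_top]
    exact ChainFrom.top
  | @step A B n hlt hn _ ih =>
    refine ChainFrom.step ?_ ?_ ih
    · refine lt_of_le_of_ne (Subgroup.comap_mono hlt.le) ?_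
      intro he
      apply hlt.ne
      apply le_antisymm hlt.le
      intro y hy
      obtain ⟨x, rfl⟩ := hf y
      have : x ∈ B.comap f := hy
      rw [← he] at this
      exact this
    · intro b hb a ha
      simp only [Subgroup.mem_comap, map_mul, map_inv] at hb ha ⊢
      exact hn _ hb _ ha

theorem ChainFrom.split (f : X →* Z) (hf : Function.Surjective f) {A : Subgroup X} {l : ℕ}
    (h : ChainFrom A l) :
    ∃ a b, l ≤ a + b ∧ ChainFrom (A.subgroupOf f.ker) a ∧ ChainFrom (A.map f) b := by
  induction h with
  | top =>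
    refine ⟨0, 0, le_rfl, ?_, ?_⟩
    · rw [Subgroup.top_subgroupOf]
      exact ChainFrom.top
    · rw [Subgroup.map_top_of_surjective f hf]
      exact ChainFrom.top
  | @step A B n hlt hn _ ih =>
    obtain ⟨a, b, hl, h1, h2⟩ := ih
    have hs1 : A.subgroupOf f.ker ≠ B.subgroupOf f.ker → ChainFrom (A.subgroupOf f.ker) (a + 1) := by
      intro h1'
      refine ChainFrom.step ?_ ?_ h1
      · refine lt_of_le_of_ne ?_ h1'
        intro x hx
        rw [Subgroup.mem_subgroupOf] at hx ⊢
        exact hlt.le hx
      · intro b' hb' a' ha'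
        rw [Subgroup.mem_subgroupOf] at hb' ha' ⊢
        simpa using hn _ hb' _ ha'
    have hs2 : A.map f ≠ B.map f → ChainFrom (A.map f) (b + 1) := by
      intro h2'
      refine ChainFrom.step ?_ ?_ h2
      · exact lt_of_le_of_ne (Subgroup.map_mono hlt.le) h2'
      · rintro _ ⟨b', hb', rfl⟩ _ ⟨a', ha', rfl⟩
        refine ⟨b' * a' * b'⁻¹, hn _ hb' _ ha', by simp⟩
    by_cases h1' : A.subgroupOf f.ker = B.subgroupOf f.ker
    · by_cases h2' : A.map f = B.map f
      · exfalso
        apply hlt.ne
        apply le_antisymm hlt.le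
        intro x hx
        have h3 : f x ∈ A.map f := by
          rw [h2']
          exact Subgroup.mem_map_of_mem _ hx
        obtain ⟨y, hy, hyx⟩ := h3
        have h4 : y⁻¹ * x ∈ f.ker := by
          rw [MonoidHom.mem_ker, map_mul, map_inv, hyx, inv_mul_cancel]
        have h5 : (⟨y⁻¹ * x, h4⟩ : f.ker) ∈ B.subgroupOf f.ker := by
          rw [Subgroup.mem_subgroupOf]
          exact B.mul_mem (B.inv_mem (hlt.le hy)) hx
        rw [← h1', Subgroup.mem_subgroupOf] at h5
        have h6 : y⁻¹ * x ∈ A := h5
        have := A.mul_mem hy h6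
        simpa using this
      · exact ⟨a, b + 1, by omega, h1' ▸ h1, hs2 h2'⟩
    · by_cases h2' : A.map f = B.map f
      · exact ⟨a + 1, b, by omega, hs1 h1', h2' ▸ h2⟩
      · exact ⟨a + 1, b + 1, by omega, hs1 h1', hs2 h2'⟩

theorem lt_card {A B : Subgroup X} [Finite X] (h : A < B) : ∃ c, 2 ≤ c ∧ Nat.card B = Nat.card A * c := by
  obtain ⟨c, hc⟩ := Subgroup.card_dvd_of_le h.le
  refine ⟨c, ?_, hc⟩
  have hB : 0 < Nat.card B := Nat.card_pos
  have c0 : c ≠ 0 := by
    rintro rfl
    simp at hc
    omega
  have c1 : c ≠ 1 := by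
    rintro rfl
    rw [mul_one] at hc
    exact h.ne (Subgroup.eq_of_le_of_card_ge h.le (by omega))
  omega

theorem ChainFrom.two_pow [Finite X] {A : Subgroup X} {l : ℕ} (h : ChainFrom A l) :
    2 ^ l * Nat.card A ≤ Nat.card X := by
  induction h with
  | top => simp
  | @step A B n hlt _ _ ih =>
    obtain ⟨c, hc, he⟩ := lt_card hlt
    have hA : 0 < Nat.card A := Nat.card_pos
    calc 2 ^ (n + 1) * Nat.card A = 2 ^ n * (2 * Nat.card A) := by ring
      _ ≤ 2 ^ n * Nat.card B := by
        apply Nat.mul_le_mul_left
        rw [he]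
        nlinarith
      _ ≤ _ := ih

theorem ChainFrom.two_pow' [Finite X] {A : Subgroup X} {l : ℕ} (h : ChainFrom A l) :
    2 ^ l ≤ Nat.card X := by
  have := h.two_pow
  have hA : 0 < Nat.card A := Nat.card_pos
  nlinarith [Nat.zero_le (2 ^ l)]

theorem ChainFrom.omega_le [Finite X] {A : Subgroup X} {l : ℕ} (h : ChainFrom A l) :
    cardFactors (Nat.card A) + l ≤ cardFactors (Nat.card X) := by
  induction h with
  | top => simp
  | @step A B n hlt _ _ ih =>
    obtain ⟨c, hc, he⟩ := lt_card hlt
    have hA : 0 < Nat.card A := Nat.card_pos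
    have h1 : cardFactors (Nat.card B) = cardFactors (Nat.card A) + cardFactors c := by
      rw [he, cardFactors_mul (by omega) (by omega)]
    have h2 : 1 ≤ cardFactors c := by
      rw [Nat.succ_le_iff]
      exact cardFactors_pos_iff_one_lt.mpr (by omega)
    omega

theorem ChainFrom.omega_le' [Finite X] {A : Subgroup X} {l : ℕ} (h : ChainFrom A l) :
    l ≤ cardFactors (Nat.card X) := by
  have := h.omega_le
  omega

theorem ChainFrom.le_one [IsSimpleGroup X] {A : Subgroup X} {l : ℕ} (h : ChainFrom A l) :
    l ≤ 1 := by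
  have key : (A = ⊤ ∧ l = 0) ∨ (A = ⊥ ∧ l = 1) := by
    induction h with
    | top => exact Or.inl ⟨rfl, rfl⟩
    | @step A B n hlt hn _ ih =>
      rcases ih with ⟨rfl, rfl⟩ | ⟨rfl, rfl⟩
      · right
        refine ⟨?_, rfl⟩
        have hN : A.Normal := ⟨fun a ha g => hn g trivial a ha⟩
        rcases hN.eq_bot_or_eq_top with h' | h'
        · exact h'
        · exact absurd h' hlt.ne
      · exact absurd hlt (not_lt_bot)
  rcases key with ⟨-, rfl⟩ | ⟨-, rfl⟩ <;> omega

/-- Transport along a surjection: chains in the target are bounded by bounds in the source. -/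
theorem chain_le_of_surjective (f : X →* Z) (hf : Function.Surjective f) {m : ℕ}
    (h : ∀ (A : Subgroup X) (l : ℕ), ChainFrom A l → l ≤ m) (A : Subgroup Z) (l : ℕ)
    (hc : ChainFrom A l) : l ≤ m :=
  h _ _ (hc.comap f hf)

/-- If the kernel is nontrivial, a chain of the quotient pulls back to a longer chain. -/
theorem chain_succ_of_surjective (f : X →* Z) (hf : Function.Surjective f) (hk : f.ker ≠ ⊥)
    {A : Subgroup Z} {l : ℕ} (hc : ChainFrom A l) : ChainFrom (⊥ : Subgroup X) (l + 1) := by
  refine ChainFrom.step ?_ ?_ (hc.comap f hf)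
  · rw [bot_lt_iff_ne_bot]
    intro hb
    apply hk
    rw [eq_bot_iff]
    intro x hx
    have : x ∈ A.comap f := by
      rw [Subgroup.mem_comap, (MonoidHom.mem_ker).mp hx]
      exact A.one_mem
    rw [hb] at this
    exact this
  · intro b _ a ha
    rw [Subgroup.mem_bot] at ha ⊢
    simp [ha]

/-- Chains in a group generated by finitely many normal "length one" subgroups. -/
theorem chain_le_of_family : ∀ (k : ℕ) (X : Type _) [Group X] (S : Finset (Subgroup X)),
    S.card ≤ k → (∀ T ∈ S, T.Normal) →
    (∀ T ∈ S, ∀ (A : Subgroup T) (l : ℕ), ChainFrom A l → l ≤ 1) →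
    (⨆ T ∈ S, T) = ⊤ → ∀ (A : Subgroup X) (l : ℕ), ChainFrom A l → l ≤ k := by
  classical
  intro k
  induction k with
  | zero =>
    intro X _ S hS _ _ hsup A l hc
    have hS0 : S = ∅ := Finset.card_eq_zero.mp (by omega)
    subst hS0
    simp only [Finset.notMem_empty, iSup_false, iSup_bot] at hsup
    cases hc with
    | top => exact le_rfl
    | @step _ B _ hlt _ _ =>
      exfalso
      have h1 : B ≤ ⊥ := by rw [hsup]; exact le_top
      have h2 : A = B := by
        apply le_antisymm hlt.le
        exact h1.trans bot_le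
      exact hlt.ne h2
  | succ k ih =>
    intro X _ S hS hN hone hsup A l hc
    rcases S.eq_empty_or_nonempty with rfl | ⟨T, hT⟩
    · exact (ih X ∅ (by simp) (by simp) (by simp) hsup A l hc).trans (by omega)
    haveI hTn : T.Normal := hN T hT
    let f : X →* X ⧸ T := QuotientGroup.mk' T
    have hf : Function.Surjective f := QuotientGroup.mk'_surjective T
    have hker : f.ker = T := QuotientGroup.ker_mk' T
    obtain ⟨a, b, hl, h1, h2⟩ := hc.split f hf
    have ha : a ≤ 1 := by
      have e : T ≃* f.ker := MulEquiv.subgroupCongr hker.symm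
      exact chain_le_of_surjective e.toMonoidHom e.surjective (hone T hT) _ _ h1
    have hb : b ≤ k := by
      refine ih (X ⧸ T) ((S.erase T).image (Subgroup.map f)) ?_ ?_ ?_ ?_ _ _ h2
      · refine Finset.card_image_le.trans ?_
        rw [Finset.card_erase_of_mem hT]
        omega
      · intro U hU
        obtain ⟨T', hT', rfl⟩ := Finset.mem_image.mp hU
        haveI := hN T' (Finset.mem_of_mem_erase hT')
        exact Subgroup.Normal.map inferInstance f hf
      · intro U hU
        obtain ⟨T', hT', rfl⟩ := Finset.mem_image.mp hU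
        exact chain_le_of_surjective (f.subgroupMap T') (f.subgroupMap_surjective T')
          (hone T' (Finset.mem_of_mem_erase hT'))
      · rw [eq_top_iff]
        intro y _
        obtain ⟨x, rfl⟩ := hf y
        have hx : x ∈ (⨆ T ∈ S, T) := by rw [hsup]; trivial
        have hle : (⨆ T ∈ S, T) ≤ (⨆ U ∈ (S.erase T).image (Subgroup.map f), U).comap f := by
          refine iSup₂_le ?_
          intro T' hT' z hz
          rw [Subgroup.mem_comap]
          by_cases he : T' = T
          · subst he
            have : f z = 1 := by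
              rw [← MonoidHom.mem_ker, hker]
              exact hz
            rw [this]
            exact Subgroup.one_mem _
          · have hmem : T'.map f ∈ (S.erase T).image (Subgroup.map f) :=
              Finset.mem_image.mpr ⟨T', Finset.mem_erase.mpr ⟨he, hT'⟩, rfl⟩
            exact (le_iSup₂_of_le (T'.map f) hmem le_rfl :
              T'.map f ≤ ⨆ U ∈ (S.erase T).image (Subgroup.map f), U)
              (Subgroup.mem_map_of_mem f hz)
        exact hle hx
    omega

end Cfsg.Agent.Lib.CompLen
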