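import Mathlib
import Cfsg.Agent.Lib.CompLen.Basic

/-!
# The induction frame: orbit counts, intransitive and imprimitive steps
-/

set_option autoImplicit false
set_option linter.style.haveILetI false

universe u v

namespace Cfsg.Agent.Lib.CompLen

open MulAction

/-- The number of orbits. -/
noncomputable abbrev orbs (A Y : Type*) [Group A] [MulAction A Y] : ℕ :=
  Nat.card (orbitRel.Quotient A Y)

/-- The bound for an action. -/
def Bd (A Y : Type*) [Group A] [MulAction A Y] : Prop :=
  ∀ (B : Subgroup A) (l : ℕ), ChainFrom B l → 3 * l + 4 * orbs A Y ≤ 4 * Nat.card Y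

/-- The bound for permutation groups on sets of size `n`. -/
def TT (n : ℕ) : Prop :=
  ∀ (Y : Type v) [Finite Y] (X : Subgroup (Equiv.Perm Y)), Nat.card Y = n → Bd X Y

section orbs

variable {A A' Y Y' : Type*} [Group A] [Group A'] [MulAction A Y] [MulAction A' Y']

/-- Well-defined map on orbit spaces. -/
theorem orbs_le_of_surj [Finite Y] (g : Y → Y') (hg : Function.Surjective g)
    (h : ∀ (a : A) (y : Y), ∃ a' : A', a' • g y = g (a • y)) : orbs A' Y' ≤ orbs A Y := by
  have : Finite Y' := Finite.of_surjective g hg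
  have : Finite (orbitRel.Quotient A Y) := Quotient.finite _
  let F : orbitRel.Quotient A Y → orbitRel.Quotient A' Y' :=
    Quotient.lift (fun y => (Quotient.mk'' (g y) : orbitRel.Quotient A' Y')) (by
      intro y₁ y₂ hy
      obtain ⟨a, rfl⟩ := hy
      obtain ⟨a', ha'⟩ := h a y₂
      apply Quotient.sound'
      rw [orbitRel_apply]
      exact ⟨a', ha'⟩)
  apply Nat.card_le_card_of_surjective F
  intro q
  induction q using Quotient.inductionOn' with
  | h y' =>
    obtain ⟨y, rfl⟩ := hg y'
    exact ⟨Quotient.mk'' y, rfl⟩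

theorem one_le_orbs [Finite Y] [Nonempty Y] : 1 ≤ orbs A Y := by
  have : Finite (orbitRel.Quotient A Y) := Quotient.finite _
  have : Nonempty (orbitRel.Quotient A Y) := ⟨Quotient.mk'' (Classical.arbitrary Y)⟩
  exact Nat.card_pos

theorem orbs_le_one [IsPretransitive A Y] : orbs A Y ≤ 1 := by
  have : Subsingleton (orbitRel.Quotient A Y) := by
    constructor
    intro q₁ q₂
    induction q₁ using Quotient.inductionOn' with
    | h y₁ =>
    induction q₂ using Quotient.inductionOn' with
    | h y₂ =>
    apply Quotient.sound'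
    rw [orbitRel_apply]
    exact exists_smul_eq A y₂ y₁
  exact Finite.card_le_one_iff_subsingleton.mpr this

end orbs

/-- Bridge from permutation groups to faithful actions. -/
theorem bd_of_range {A Y : Type*} [Group A] [MulAction A Y] [FaithfulSMul A Y] [Finite Y]
    (h : Bd (toPermHom A Y).range Y) : Bd A Y := by
  intro B l hc
  have hinj : Function.Injective (toPermHom A Y) := by
    intro a b hab
    apply FaithfulSMul.eq_of_smul_eq_smul (α := Y)
    intro y
    have := congrArg (fun p : Equiv.Perm Y => p y) hab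
    simpa using this
  let e : A ≃* (toPermHom A Y).range := MonoidHom.ofInjective hinj
  have h1 := h _ _ (hc.comap e.symm.toMonoidHom e.symm.surjective)
  have h2 : orbs A Y ≤ orbs (toPermHom A Y).range Y := by
    apply orbs_le_of_surj (id : Y → Y) Function.surjective_id
    rintro ⟨_, a, rfl⟩ y
    exact ⟨a, rfl⟩
  omega

theorem bd_of_T {n : ℕ} (hT : ∀ k < n, TT.{v} k) {A : Type*} {Y : Type v} [Group A] [MulAction A Y]
    [FaithfulSMul A Y] [Finite Y] (h : Nat.card Y < n) : Bd A Y :=
  bd_of_range (hT _ h Y _ rfl)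

section stepA

variable {A : Type*} {Ω : Type v} [Group A] [MulAction A Ω] [FaithfulSMul A Ω] [Finite Ω]

/-- An invariant subset as a sub-action. -/
def orbS (A : Type*) {Ω : Type*} [Group A] [MulAction A Ω] (a : Ω) : SubMulAction A Ω where
  carrier := orbit A a
  smul_mem' := fun c _ hx => by
    obtain ⟨g, rfl⟩ := hx
    exact ⟨c * g, mul_smul _ _ _⟩

/-- The complement of an orbit as a sub-action. -/
def orbC (A : Type*) {Ω : Type*} [Group A] [MulAction A Ω] (a : Ω) : SubMulAction A Ω where
  carrier := (orbit A a)ᶜ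
  smul_mem' := fun c x hx => by
    intro hc
    apply hx
    obtain ⟨g, hg⟩ := hc
    refine ⟨c⁻¹ * g, ?_⟩
    change (c⁻¹ * g) • a = x
    rw [mul_smul]
    have hg' : g • a = c • x := hg
    rw [hg', inv_smul_smul]

/-- **The intransitive step.** -/
theorem step_intrans {n : ℕ} (hn : Nat.card Ω = n) (hT : ∀ k < n, TT.{v} k) (a : Ω)
    (hO : orbit A a ≠ Set.univ) : Bd A Ω := by
  classical
  intro B l hc
  let O := orbS A a
  let O' := orbC A a
  have hcard : Nat.card O + Nat.card O' = Nat.card Ω := by
    rw [← Nat.card_sum]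
    apply Nat.card_congr
    exact Equiv.sumCompl (fun x => x ∈ orbit A a)
  have hO1 : 0 < Nat.card O := by
    have : Nonempty O := ⟨⟨a, mem_orbit_self a⟩⟩
    exact Nat.card_pos
  have hO2 : 0 < Nat.card O' := by
    obtain ⟨x, hx⟩ : ∃ x, x ∉ orbit A a := by
      by_contra hc
      push Not at hc
      exact hO (Set.eq_univ_of_forall hc)
    have : Nonempty O' := ⟨⟨x, hx⟩⟩
    exact Nat.card_pos
  let φ : A →* Equiv.Perm O := toPermHom A O
  let f : A →* φ.range := φ.rangeRestrict
  have hf : Function.Surjective f := φ.rangeRestrict_surjective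
  have hmemK : ∀ k ∈ f.ker, ∀ y ∈ orbit A a, (k : A) • y = y := by
    intro k hk y hy
    have h1 : φ k = 1 := by
      have := (MonoidHom.mem_ker).mp hk
      exact congrArg Subtype.val this
    have h2 := congrArg (fun p : Equiv.Perm O => (p ⟨y, hy⟩ : O)) h1
    exact congrArg Subtype.val h2
  haveI hfaith : FaithfulSMul f.ker O' := by
    constructor
    intro k₁ k₂ hk
    apply Subtype.ext
    apply FaithfulSMul.eq_of_smul_eq_smul (α := Ω)
    intro y
    by_cases hy : y ∈ orbit A a
    · rw [hmemK k₁ k₁.2 y hy, hmemK k₂ k₂.2 y hy]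
    · have := congrArg Subtype.val (hk ⟨y, hy⟩)
      exact this
  obtain ⟨a', b', hl, h1, h2⟩ := hc.split f hf
  have hb1 := hT (Nat.card O) (by omega) O φ.range rfl _ _ h2
  have hb2 := (bd_of_T hT (A := f.ker) (Y := O') (by omega)) _ _ h1
  have hsum : orbs A Ω ≤ orbs φ.range O + orbs f.ker O' := by
    have : Finite (orbitRel.Quotient φ.range O) := Quotient.finite _
    have : Finite (orbitRel.Quotient f.ker O') := Quotient.finite _
    rw [← Nat.card_sum]
    have : Finite (orbitRel.Quotient A Ω) := Quotient.finite _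
    let F₁ : orbitRel.Quotient φ.range O → orbitRel.Quotient A Ω :=
      Quotient.lift (fun y => (Quotient.mk'' (y : Ω) : orbitRel.Quotient A Ω)) (by
        intro y₁ y₂ hy
        obtain ⟨⟨_, g, rfl⟩, rfl⟩ := hy
        apply Quotient.sound'
        rw [orbitRel_apply]
        exact ⟨g, rfl⟩)
    let F₂ : orbitRel.Quotient f.ker O' → orbitRel.Quotient A Ω :=
      Quotient.lift (fun y => (Quotient.mk'' (y : Ω) : orbitRel.Quotient A Ω)) (by
        intro y₁ y₂ hy
        obtain ⟨k, rfl⟩ := hy
        apply Quotient.sound'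
        rw [orbitRel_apply]
        exact ⟨(k : A), rfl⟩)
    apply Nat.card_le_card_of_surjective (Sum.elim F₁ F₂)
    intro q
    induction q using Quotient.inductionOn' with
    | h y =>
      by_cases hy : y ∈ orbit A a
      · exact ⟨Sum.inl (Quotient.mk'' (⟨y, hy⟩ : O)), rfl⟩
      · exact ⟨Sum.inr (Quotient.mk'' (⟨y, hy⟩ : O')), rfl⟩
  rw [← hcard]
  nlinarith

end stepA

section stepB

variable {A : Type v} {Ω : Type v} [Group A] [Finite A] [MulAction A Ω] [FaithfulSMul A Ω] [Finite Ω]
  [IsPretransitive A Ω]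

/-- **The imprimitive step.** -/
theorem step_imprim {n : ℕ} (hn : Nat.card Ω = n) (hT : ∀ k < n, TT.{v} k) (a : Ω)
    (S : Subgroup A) (h1S : stabilizer A a < S) (h2S : S ≠ ⊤) : Bd A Ω := by
  classical
  intro B l hc
  let φ : A →* Equiv.Perm (A ⧸ S) := toPermHom A (A ⧸ S)
  let f : A →* φ.range := φ.rangeRestrict
  have hf : Function.Surjective f := φ.rangeRestrict_surjective
  have hkS : ∀ k ∈ f.ker, ∀ x : A, x⁻¹ * k * x ∈ S := by
    intro k hk x
    have h1 : φ k = 1 := congrArg Subtype.val ((MonoidHom.mem_ker).mp hk)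
    have h2 := congrArg (fun p : Equiv.Perm (A ⧸ S) => p ((x : A) : A ⧸ S)) h1
    have h3 : ((k * x : A) : A ⧸ S) = ((x : A) : A ⧸ S) := h2
    have h4 := QuotientGroup.eq.mp h3
    have : (k * x)⁻¹ * x ∈ S := h4
    have h5 := S.inv_mem this
    simpa [mul_assoc] using h5
  have hkS' : ∀ k ∈ f.ker, k ∈ S := by
    intro k hk
    simpa using hkS k hk 1
  -- the index
  have hindex : Nat.card Ω = (stabilizer A a).index := by
    rw [index_stabilizer_of_transitive]
  have hm : 2 * S.index ≤ Nat.card Ω := by
    rw [hindex, ← Subgroup.relIndex_mul_index h1S.le]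
    apply Nat.mul_le_mul_right
    have hne : (stabilizer A a).relIndex S ≠ 0 := by
      have : (stabilizer A a).index ≠ 0 := Subgroup.index_ne_zero_of_finite
      intro h0
      apply this
      rw [← Subgroup.relIndex_mul_index h1S.le, h0, zero_mul]
    have hne1 : (stabilizer A a).relIndex S ≠ 1 := by
      intro h1
      have := Subgroup.relIndex_eq_one.mp h1
      exact absurd (le_antisymm h1S.le this) h1S.ne
    omega
  have hm1 : 1 ≤ S.index := Nat.pos_of_ne_zero Subgroup.index_ne_zero_of_finite
  have hmcard : Nat.card (A ⧸ S) = S.index := rfl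
  -- the orbit of the kernel is proper
  have hOK : orbit f.ker a ≠ Set.univ := by
    intro hu
    apply h2S
    rw [eq_top_iff]
    intro x _
    have hx : x • a ∈ orbit f.ker a := by rw [hu]; trivial
    obtain ⟨k, hk⟩ := hx
    have hk' : (k : A) • a = x • a := hk
    have h3 : (k : A)⁻¹ * x ∈ stabilizer A a := by
      rw [mem_stabilizer_iff, mul_smul, ← hk', inv_smul_smul]
    have := S.mul_mem (hkS' k k.2) (h1S.le h3)
    simpa using this
  have hK : Bd f.ker Ω := step_intrans hn hT a hOK
  -- the orbits of the kernel surject on the cosets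
  have horb : S.index ≤ orbs f.ker Ω := by
    have : Finite (orbitRel.Quotient f.ker Ω) := Quotient.finite _
    choose r hr using fun y : Ω => exists_smul_eq A a y
    let g : Ω → A ⧸ S := fun y => ((r y : A) : A ⧸ S)
    have hg : ∀ (x : A), g (x • a) = ((x : A) : A ⧸ S) := by
      intro x
      apply QuotientGroup.eq.mpr
      have h4 : x⁻¹ * r (x • a) ∈ stabilizer A a := by
        rw [mem_stabilizer_iff, mul_smul, hr, inv_smul_smul]
      have h5 := S.inv_mem (h1S.le h4)
      simpa using h5
    let F : orbitRel.Quotient f.ker Ω → A ⧸ S := Quotient.lift g (by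
      intro y₁ y₂ hy
      obtain ⟨k, rfl⟩ := hy
      have hy₂ : y₂ = r y₂ • a := (hr y₂).symm
      have h6 : (k : f.ker) • y₂ = ((k : A) * r y₂) • a := by
        change (k : A) • y₂ = _
        rw [mul_smul, hr]
      change g (k • y₂) = g y₂
      rw [h6, hg]
      change (((k : A) * r y₂ : A) : A ⧸ S) = ((r y₂ : A) : A ⧸ S)
      apply QuotientGroup.eq.mpr
      have := hkS k k.2 (r y₂)
      have h7 := S.inv_mem this
      have e : ((k : A) * r y₂)⁻¹ * r y₂ = ((r y₂)⁻¹ * k * r y₂)⁻¹ := by group
      rw [e]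
      exact h7)
    rw [← hmcard]
    apply Nat.card_le_card_of_surjective F
    intro q
    induction q using Quotient.inductionOn' with
    | h x =>
      exact ⟨Quotient.mk'' (x • a), hg x⟩
  obtain ⟨a', b', hl, h1, h2⟩ := hc.split f hf
  have hb1 := hK _ _ h1
  have hb2 := hT (Nat.card (A ⧸ S)) (by omega) (A ⧸ S) φ.range rfl _ _ h2
  have hb3 : 1 ≤ orbs φ.range (A ⧸ S) := one_le_orbs
  have hb4 : orbs A Ω ≤ 1 := orbs_le_one
  rw [hmcard] at hb2
  omega

end stepB

end Cfsg.Agent.Lib.CompLen
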