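import Mathlib
import Cfsg.Agent.Lib.CompLen.Basic
import Cfsg.Agent.Lib.CompLen.Frame
import Cfsg.Agent.Lib.Perm.Basic

/-!
# Splitting a chain along a transitive normal subgroup; bounds on invariant subsets of a stabilizer
-/

set_option autoImplicit false
set_option linter.style.haveILetI false

universe v

namespace Cfsg.Agent.Lib.CompLen

open MulAction Cfsg.Agent.Lib.Perm.Basic

/-- Splitting a chain along a transitive normal subgroup. -/
theorem chain_split {G Ω : Type*} [Group G] [MulAction G Ω] (N : Subgroup G) [N.Normal]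
    [IsPretransitive N Ω] (a : Ω) {B : Subgroup G} {l : ℕ} (h : ChainFrom B l) :
    ∃ c d, l ≤ c + d ∧ (∃ A : Subgroup N, ChainFrom A c) ∧
      ∃ A : Subgroup (stabilizer G a), ChainFrom A d ∧
        ((∃ x ∈ N, x ∈ stabilizer G a ∧ x ≠ 1) →
          ChainFrom (⊥ : Subgroup (stabilizer G a)) (d + 1)) := by
  let f : G →* G ⧸ N := QuotientGroup.mk' N
  have hf : Function.Surjective f := QuotientGroup.mk'_surjective N
  obtain ⟨c, d, hl, h1, h2⟩ := h.split f hf
  let e : N ≃* f.ker := MulEquiv.subgroupCongr (QuotientGroup.ker_mk' N).symm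
  refine ⟨c, d, hl, ⟨_, h1.comap e.toMonoidHom e.surjective⟩, ?_⟩
  let ψ : stabilizer G a →* G ⧸ N := f.comp (stabilizer G a).subtype
  have hker : ∀ x : G, f x = 1 ↔ x ∈ N := fun x => QuotientGroup.eq_one_iff x
  have hψ : Function.Surjective ψ := by
    intro q
    obtain ⟨g, rfl⟩ := hf q
    obtain ⟨n, hn, s, hs, rfl⟩ := exists_mem_mul_mem_stabilizer N a g
    refine ⟨⟨s, hs⟩, ?_⟩
    change f s = f (n * s)
    rw [map_mul, (hker n).mpr hn, one_mul]
  refine ⟨_, h2.comap ψ hψ, ?_⟩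
  rintro ⟨x, hxN, hxS, hx1⟩
  refine chain_succ_of_surjective ψ hψ ?_ h2
  intro hb
  have hmem : (⟨x, hxS⟩ : stabilizer G a) ∈ ψ.ker := by
    rw [MonoidHom.mem_ker]
    exact (hker x).mpr hxN
  rw [hb, Subgroup.mem_bot] at hmem
  exact hx1 (congrArg Subtype.val hmem)

/-- The inductive bound on an invariant subset on which a subgroup acts faithfully. -/
theorem bd_subset {G : Type*} {Ω : Type v} [Group G] [MulAction G Ω] [Finite Ω] {n : ℕ}
    (hT : ∀ k < n, TT.{v} k) (St : Subgroup G) (Λ : Set Ω)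
    (hinv : ∀ g ∈ St, ∀ y ∈ Λ, g • y ∈ Λ)
    (hfaith : ∀ g ∈ St, (∀ y ∈ Λ, g • y = y) → g = 1)
    (hne : Λ.Nonempty) (hlt : Λ.ncard < n) (A : Subgroup St) (d : ℕ) (hc : ChainFrom A d) :
    3 * d + 4 ≤ 4 * Λ.ncard := by
  let L : SubMulAction St Ω :=
    { carrier := Λ
      smul_mem' := fun c _ hx => hinv c.1 c.2 _ hx }
  haveI : FaithfulSMul St L := by
    constructor
    intro g₁ g₂ h12
    have h3 : g₁⁻¹ * g₂ = 1 := by
      apply Subtype.ext
      apply hfaith _ (g₁⁻¹ * g₂).2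
      intro y hy
      have h4 := congrArg Subtype.val (h12 ⟨y, hy⟩)
      have h5 : (g₁ : G) • y = (g₂ : G) • y := h4
      change ((g₁ : G)⁻¹ * (g₂ : G)) • y = y
      rw [mul_smul, ← h5, inv_smul_smul]
    exact (inv_mul_eq_one.mp h3)
  have hcard : Nat.card L = Λ.ncard := rfl
  have h1 := bd_of_T hT (A := St) (Y := L) (by rw [hcard]; exact hlt) A d hc
  haveI : Nonempty L := by
    obtain ⟨y, hy⟩ := hne
    exact ⟨⟨y, hy⟩⟩
  have h2 : 1 ≤ orbs St L := one_le_orbs
  rw [hcard] at h1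
  omega

end Cfsg.Agent.Lib.CompLen
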