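import Mathlib
import Cfsg.Agent.Lib.CompLen.Split

/-!
# The bound when a transitive abelian normal subgroup exists
-/

set_option autoImplicit false
set_option linter.style.haveILetI false

universe v

namespace Cfsg.Agent.Lib.CompLen

open MulAction Cfsg.Agent.Lib.Perm.Basic ArithmeticFunction

/-- A finite group is generated by at most `Ω(|X|)` nontrivial elements. -/
theorem exists_gen (X : Type*) [Group X] [Finite X] :
    ∃ s : Finset X, Subgroup.closure (s : Set X) = ⊤ ∧ s.card ≤ cardFactors (Nat.card X) ∧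
      (1 : X) ∉ s := by
  classical
  let S : Set (Subgroup X) := {H | ∃ s : Finset X, Subgroup.closure (s : Set X) = H ∧
    s.card ≤ cardFactors (Nat.card H) ∧ (1 : X) ∉ s}
  have hS : S.Nonempty := ⟨⊥, ∅, by simp, by simp, by simp⟩
  obtain ⟨H, ⟨s, hs, hc, h1⟩, hmax⟩ :=
    Set.exists_max_image S (fun H : Subgroup X => Nat.card H) (Set.toFinite S) hS
  by_cases hH : H = ⊤
  · subst hH
    refine ⟨s, hs, ?_, h1⟩
    rwa [Subgroup.card_top] at hc
  · exfalso
    obtain ⟨x, hx⟩ : ∃ x, x ∉ H := by
      by_contra hcon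
      push Not at hcon
      exact hH (eq_top_iff.mpr fun y _ => hcon y)
    have hx1 : x ≠ 1 := fun h => hx (h ▸ H.one_mem)
    let H' : Subgroup X := Subgroup.closure ((insert x s : Finset X) : Set X)
    have hlt : H < H' := by
      refine lt_of_le_of_ne ?_ ?_
      · rw [← hs]
        apply Subgroup.closure_mono
        simp
      · intro he
        apply hx
        rw [he]
        apply Subgroup.subset_closure
        simp
    obtain ⟨c, hc2, he⟩ := lt_card hlt
    have hmem : H' ∈ S := by
      refine ⟨insert x s, rfl, ?_, ?_⟩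
      · have h2 : cardFactors (Nat.card H') = cardFactors (Nat.card H) + cardFactors c := by
          rw [he, cardFactors_mul (Nat.card_pos.ne') (by omega)]
        have h3 : 1 ≤ cardFactors c := by
          rw [Nat.succ_le_iff]
          exact cardFactors_pos_iff_one_lt.mpr (by omega)
        have h4 := Finset.card_insert_le x s
        omega
      · simp [h1, hx1.symm]
    have h5 : Nat.card H' ≤ Nat.card H := hmax H' hmem
    have h6 : 0 < Nat.card H := Nat.card_pos
    rw [he] at h5
    nlinarith

theorem two_pow_cardFactors_le {n : ℕ} (hn : n ≠ 0) : 2 ^ cardFactors n ≤ n := by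
  have h1 := List.pow_card_le_prod (Nat.primeFactorsList n) 2 (fun x hx => (Nat.prime_of_mem_primeFactorsList hx).two_le)
  rwa [Nat.prod_primeFactorsList hn] at h1

theorem numeric_aux : ∀ D : ℕ, 5 ≤ D → 3 * (D * D + 2 * D) + 4 ≤ 4 * 2 ^ D := by
  intro D hD
  induction D, hD using Nat.le_induction with
  | base => norm_num
  | succ D hD ih =>
    rw [pow_succ]
    nlinarith

theorem numeric_small (n : ℕ) (h2 : 2 ≤ n) (hlt : n < 32) (hn4 : n ≠ 4) (hn8 : n ≠ 8) :
    (n - 1) ^ (cardFactors n) < 2 ^ ((4 * n - 4) / 3 - cardFactors n + 1) ∧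
      cardFactors n ≤ (4 * n - 4) / 3 := by
  interval_cases n <;> first | omega | (simp [cardFactors_apply])

theorem numeric_8 (g : ℕ) (hg : g ≤ 343) (hd : g ∣ 5040) (h1 : 128 ≤ g) : cardFactors g ≤ 6 := by
  obtain ⟨k, hk⟩ := hd
  have hk1 : 15 ≤ k := by
    by_contra hcon
    have : k ≤ 14 := by omega
    nlinarith
  have hk2 : k ≤ 39 := by
    by_contra hcon
    have : 40 ≤ k := by omega
    nlinarith
  have hgk : g = 5040 / k := (Nat.div_eq_of_eq_mul_left (by omega) hk).symm
  interval_cases k <;> first | omega | (norm_num at hgk; subst hgk; simp [cardFactors_apply])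

theorem numeric (n g d : ℕ) (hn : 2 ≤ n) (hg : g ≤ (n - 1) ^ cardFactors n)
    (hdvd : g ∣ (n - 1).factorial) (hd1 : 2 ^ d ≤ g) (hd2 : d ≤ cardFactors g) :
    3 * (cardFactors n + d) + 4 ≤ 4 * n := by
  by_cases hlarge : 32 ≤ n
  · set D := Nat.log 2 n with hD
    have hD1 : 2 ^ D ≤ n := Nat.pow_log_le_self 2 (by omega)
    have hD2 : n < 2 ^ (D + 1) := Nat.lt_pow_succ_log_self (by norm_num) n
    have hD5 : 5 ≤ D := by
      by_contra hcon
      have : D + 1 ≤ 5 := by omega
      have := Nat.pow_le_pow_right (by norm_num : 0 < 2) this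
      omega
    have h1 : cardFactors n ≤ D := by
      have h2 := two_pow_cardFactors_le (n := n) (by omega)
      have h3 : 2 ^ cardFactors n < 2 ^ (D + 1) := lt_of_le_of_lt h2 hD2
      have h4 := (Nat.pow_lt_pow_iff_right (by norm_num)).mp h3
      omega
    have h2 : d ≤ (D + 1) * D := by
      have h3 : 2 ^ d ≤ (n - 1) ^ cardFactors n := hd1.trans hg
      have h4 : (n - 1) ^ cardFactors n ≤ (2 ^ (D + 1)) ^ D := by
        calc (n - 1) ^ cardFactors n ≤ (2 ^ (D + 1)) ^ cardFactors n :=
              Nat.pow_le_pow_left (by omega) _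
          _ ≤ (2 ^ (D + 1)) ^ D := Nat.pow_le_pow_right (Nat.pos_of_ne_zero (by positivity)) h1
      rw [← pow_mul] at h4
      exact (Nat.pow_le_pow_iff_right (by norm_num)).mp (h3.trans h4)
    have h3 := numeric_aux D hD5
    nlinarith
  · have hlt : n < 32 := by omega
    by_cases hn4 : n = 4
    · subst hn4
      have h1 : cardFactors 4 = 2 := by simp [cardFactors_apply]
      have h2 : g ≤ 6 := Nat.le_of_dvd (by norm_num [Nat.factorial]) hdvd
      have h3 : d ≤ 2 := by
        by_contra hcon
        have := Nat.pow_le_pow_right (by norm_num : 0 < 2) (by omega : 3 ≤ d)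
        omega
      rw [h1]
      omega
    by_cases hn8 : n = 8
    · subst hn8
      have h1 : cardFactors 8 = 3 := by simp [cardFactors_apply]
      rw [h1] at hg ⊢
      have hdvd' : g ∣ 5040 := by simpa [Nat.factorial] using hdvd
      have h3 : d ≤ 6 := by
        by_contra hcon
        have h4 := Nat.pow_le_pow_right (by norm_num : 0 < 2) (by omega : 7 ≤ d)
        have h5 : 128 ≤ g := by
          calc 128 = 2 ^ 7 := by norm_num
            _ ≤ 2 ^ d := h4
            _ ≤ g := hd1
        have h6 := numeric_8 g (by simpa using hg) hdvd' h5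
        omega
      omega
    · obtain ⟨h1, h2⟩ := numeric_small n hn hlt hn4 hn8
      have h3 : 2 ^ d < 2 ^ ((4 * n - 4) / 3 - cardFactors n + 1) :=
        lt_of_le_of_lt (hd1.trans hg) h1
      have h4 := (Nat.pow_lt_pow_iff_right (by norm_num)).mp h3
      omega

variable {G : Type*} {Ω : Type v} [Group G] [Finite G] [MulAction G Ω] [FaithfulSMul G Ω] [Finite Ω]

theorem card_stab_le (N : Subgroup G) [N.Normal] [IsPretransitive N Ω] (a : Ω) (s : Finset N)
    (hs : Subgroup.closure (s : Set N) = ⊤) (h1 : (1 : N) ∉ s) :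
    Nat.card (stabilizer G a) ≤ (Nat.card N - 1) ^ s.card := by
  classical
  let φ : stabilizer G a → (s → {y : N // y ≠ 1}) := fun g x =>
    ⟨⟨(g : G) * (x : N) * (g : G)⁻¹, Subgroup.Normal.conj_mem inferInstance _ (x : N).2 _⟩, by
      intro he
      have h2 : (g : G) * ((x : N) : G) * (g : G)⁻¹ = 1 := congrArg Subtype.val he
      have h3 : ((x : N) : G) = 1 := by
        have : (g : G) * ((x : N) : G) = (g : G) := by
          rwa [mul_inv_eq_one] at h2
        simpa using this
      apply h1
      have h4 : (x : N) = 1 := Subtype.ext h3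
      rw [← h4]
      exact x.2⟩
  have hφ : Function.Injective φ := by
    intro g h he
    have hcomm : ∀ x ∈ s, (h : G)⁻¹ * g * (x : G) = (x : G) * ((h : G)⁻¹ * g) := by
      intro x hx
      have h2 := congrFun he ⟨x, hx⟩
      have h3 : (g : G) * (x : G) * (g : G)⁻¹ = (h : G) * (x : G) * (h : G)⁻¹ :=
        congrArg (fun z : {y : N // y ≠ 1} => ((z : N) : G)) h2
      rw [mul_inv_eq_iff_eq_mul] at h3
      calc (h : G)⁻¹ * g * (x : G) = (h : G)⁻¹ * ((g : G) * (x : G)) := by group
        _ = (h : G)⁻¹ * ((h : G) * (x : G) * (h : G)⁻¹ * g) := by rw [h3]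
        _ = _ := by group
    have hle : (⊤ : Subgroup N) ≤ (Subgroup.centralizer ({(h : G)⁻¹ * g} : Set G)).comap N.subtype := by
      rw [← hs, Subgroup.closure_le]
      intro x hx
      rw [SetLike.mem_coe, Subgroup.mem_comap, Subgroup.mem_centralizer_iff]
      intro z hz
      rw [Set.mem_singleton_iff] at hz
      subst hz
      exact hcomm x hx
    have hone : (h : G)⁻¹ * g = 1 := by
      apply eq_one_of_mem_centralizer_of_smul_eq N ?_ (a := a)
      · rw [mul_smul]
        have hg : (g : G) • a = a := g.2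
        have hh : (h : G)⁻¹ • a = a := (stabilizer G a).inv_mem h.2
        rw [hg, hh]
      · rw [Subgroup.mem_centralizer_iff]
        intro y hy
        have h5 := hle (Subgroup.mem_top (⟨y, hy⟩ : N))
        rw [Subgroup.mem_comap, Subgroup.mem_centralizer_iff] at h5
        exact (h5 _ rfl).symm
    apply Subtype.ext
    exact (inv_mul_eq_one.mp hone).symm
  have hcard : Nat.card {y : N // y ≠ 1} = Nat.card N - 1 := by
    have h2 := Set.ncard_add_ncard_compl ({1} : Set N)
    rw [Set.ncard_singleton] at h2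
    have h3 : Nat.card {y : N // y ≠ 1} = ({1}ᶜ : Set N).ncard := rfl
    omega
  calc Nat.card (stabilizer G a) ≤ Nat.card (s → {y : N // y ≠ 1}) :=
        Nat.card_le_card_of_injective φ hφ
    _ = (Nat.card N - 1) ^ s.card := by
        rw [Nat.card_fun, hcard, Nat.card_eq_fintype_card (α := s), Fintype.card_coe]

theorem card_stab_dvd (a : Ω) : Nat.card (stabilizer G a) ∣ (Nat.card Ω - 1).factorial := by
  classical
  haveI : Fintype Ω := Fintype.ofFinite Ω
  let L : SubMulAction (stabilizer G a) Ω :=
    { carrier := {a}ᶜ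
      smul_mem' := fun c x hx he => by
        apply hx
        have hc : (c : G) • a = a := c.2
        rw [Set.mem_singleton_iff] at he ⊢
        have he' : (c : G) • x = a := he
        exact MulAction.injective (c : G) (he'.trans hc.symm) }
  let φ : stabilizer G a →* Equiv.Perm L := toPermHom (stabilizer G a) L
  have hφ : Function.Injective φ := by
    intro g h he
    apply Subtype.ext
    apply FaithfulSMul.eq_of_smul_eq_smul (α := Ω)
    intro x
    by_cases hx : x = a
    · subst hx
      have hg : (g : G) • x = x := g.2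
      have hh : (h : G) • x = x := h.2
      rw [hg, hh]
    · have h2 := congrArg (fun p : Equiv.Perm L => ((p ⟨x, hx⟩ : L) : Ω)) he
      exact h2
  have hL : Nat.card L = Nat.card Ω - 1 := by
    have h2 := Set.ncard_add_ncard_compl ({a} : Set Ω)
    rw [Set.ncard_singleton] at h2
    have h3 : Nat.card L = ({a}ᶜ : Set Ω).ncard := rfl
    omega
  have h4 : Nat.card (Equiv.Perm L) = (Nat.card Ω - 1).factorial := by
    haveI : Fintype L := Fintype.ofFinite L
    rw [Nat.card_eq_fintype_card, Fintype.card_perm, ← Nat.card_eq_fintype_card, hL]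
  rw [← h4]
  exact Subgroup.card_dvd_of_injective φ hφ

theorem ab_case [Nontrivial Ω] {n : ℕ} (hn : Nat.card Ω = n) (N : Subgroup G) [N.Normal]
    [IsPretransitive N Ω] (hab : ∀ x ∈ N, ∀ y ∈ N, x * y = y * x) (a : Ω) (B : Subgroup G) (l : ℕ)
    (hc : ChainFrom B l) : 3 * l + 4 ≤ 4 * n := by
  obtain ⟨c, d, hl, ⟨A₁, hA₁⟩, A₂, hA₂, -⟩ := chain_split N a hc
  have hcardN : Nat.card N = n := by
    rw [← hn, ← index_stabilizer_of_transitive N a]
    have e : stabilizer N a = ⊥ := by
      rw [eq_bot_iff]
      intro x hx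
      have h1 : (x : G) = 1 := eq_one_of_commutative_transitive N hab x.2 (a := a) hx
      exact Subtype.ext h1
    rw [e, Subgroup.index_bot]
  have hn2 : 2 ≤ n := by
    rw [← hn]
    exact Finite.one_lt_card
  have hc1 : c ≤ cardFactors n := hcardN ▸ hA₁.omega_le'
  obtain ⟨s, hs, hsc, hs1⟩ := exists_gen N
  have hSt : Nat.card (stabilizer G a) ≤ (n - 1) ^ cardFactors n := by
    have h1 := card_stab_le N a s hs hs1
    rw [hcardN] at h1 hsc
    exact h1.trans (Nat.pow_le_pow_right (by omega) hsc)
  have hd1 : 2 ^ d ≤ Nat.card (stabilizer G a) := hA₂.two_pow'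
  have hd2 : d ≤ cardFactors (Nat.card (stabilizer G a)) := hA₂.omega_le'
  have hdvd : Nat.card (stabilizer G a) ∣ (n - 1).factorial := hn ▸ card_stab_dvd a
  have := numeric n _ d hn2 hSt hdvd hd1 hd2
  omega

end Cfsg.Agent.Lib.CompLen
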