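import Mathlib

/-!
# A lower bound for the index of a subgroup against commuting simple pieces

If `S` is a family of pairwise commuting "simple pieces" of `N`, none of them inside `U ≤ N`,
then `|N : U| ≥ 2 |S|`.
-/

set_option autoImplicit false

namespace Cfsg.Agent.Lib.CompLen

variable {X : Type*} [Group X]

/-- A simple nonabelian piece `T` of `N`. -/
structure Piece (N T : Subgroup X) : Prop where
  le : T ≤ N
  ne_bot : T ≠ ⊥
  inv : ∀ x ∈ N, ∀ t ∈ T, x * t * x⁻¹ ∈ T
  simple : ∀ V : Subgroup X, V ≤ T → (∀ t ∈ T, ∀ v ∈ V, t * v * t⁻¹ ∈ V) → V = ⊥ ∨ V = T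
  cen : ∀ t ∈ T, (∀ s ∈ T, s * t = t * s) → t = 1

theorem mem_sup_mul {T U : Subgroup X} (h : ∀ u ∈ U, ∀ t ∈ T, u * t * u⁻¹ ∈ T) {x : X}
    (hx : x ∈ T ⊔ U) : ∃ t ∈ T, ∃ u ∈ U, x = t * u := by
  let W : Subgroup X :=
    { carrier := {x | ∃ t ∈ T, ∃ u ∈ U, x = t * u}
      mul_mem' := by
        rintro _ _ ⟨t₁, h₁, u₁, k₁, rfl⟩ ⟨t₂, h₂, u₂, k₂, rfl⟩
        refine ⟨t₁ * (u₁ * t₂ * u₁⁻¹), T.mul_mem h₁ (h _ k₁ _ h₂), u₁ * u₂, U.mul_mem k₁ k₂, ?_⟩
        group
      one_mem' := ⟨1, T.one_mem, 1, U.one_mem, by simp⟩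
      inv_mem' := by
        rintro _ ⟨t, ht, u, hu, rfl⟩
        refine ⟨u⁻¹ * t⁻¹ * u⁻¹⁻¹, h _ (U.inv_mem hu) _ (T.inv_mem ht), u⁻¹, U.inv_mem hu, ?_⟩
        group }
  have hW : T ⊔ U ≤ W := sup_le (fun t ht => ⟨t, ht, 1, U.one_mem, by simp⟩)
    (fun u hu => ⟨1, T.one_mem, u, hu, by simp⟩)
  exact hW hx

theorem card_le_relIndex [Finite X] {U V : Subgroup X} (E : Finset X) (hE : ∀ x ∈ E, x ∈ V)
    (hd : ∀ x ∈ E, ∀ y ∈ E, x⁻¹ * y ∈ U → x = y) : E.card ≤ U.relIndex V := by
  classical
  let f : E → V ⧸ U.subgroupOf V := fun x => ((⟨x.1, hE x.1 x.2⟩ : V) : V ⧸ U.subgroupOf V)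
  have hf : Function.Injective f := by
    intro x y hxy
    have h1 := QuotientGroup.eq.mp hxy
    rw [Subgroup.mem_subgroupOf] at h1
    apply Subtype.ext
    apply hd x.1 x.2 y.1 y.2
    simpa using h1
  have := Nat.card_le_card_of_injective f hf
  rw [Nat.card_eq_fintype_card, Fintype.card_coe] at this
  exact this

theorem Piece.exists_noncomm {N T : Subgroup X} (h : Piece N T) :
    ∃ a ∈ T, ∃ b ∈ T, a * b ≠ b * a := by
  obtain ⟨t, ht, hne⟩ : ∃ t ∈ T, t ≠ 1 := by
    by_contra hc
    push Not at hc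
    exact h.ne_bot ((Subgroup.eq_bot_iff_forall T).2 hc)
  by_contra hc
  push Not at hc
  exact hne (h.cen t ht (fun s hs => hc s hs t ht))

/-- The lower bound for the index. -/
theorem two_card_le_relIndex [Finite X] {N : Subgroup X} : ∀ (k : ℕ) (S : Finset (Subgroup X))
    (U : Subgroup X), S.card ≤ k → U ≤ N → (∀ T ∈ S, Piece N T) → (∀ T ∈ S, ¬ T ≤ U) →
    (∀ T₁ ∈ S, ∀ T₂ ∈ S, T₁ ≠ T₂ → ∀ t₁ ∈ T₁, ∀ t₂ ∈ T₂, t₁ * t₂ = t₂ * t₁) →
    2 * S.card ≤ U.relIndex N := by
  classical
  intro k
  induction k with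
  | zero =>
    intro S U hS _ _ _ _
    have : S.card = 0 := by omega
    simp [this]
  | succ k ih =>
    intro S U hS hUN hP hnot hcomm
    rcases S.eq_empty_or_nonempty with rfl | ⟨T', hT'⟩
    · simp
    have hP' := hP T' hT'
    have hnorm : ∀ u ∈ U, ∀ t ∈ T', u * t * u⁻¹ ∈ T' := fun u hu t ht => hP'.inv u (hUN hu) t ht
    set U₁ := T' ⊔ U with hU₁
    have hU₁N : U₁ ≤ N := sup_le hP'.le hUN
    have hUU₁ : U ≤ U₁ := le_sup_right
    have hT'U₁ : T' ≤ U₁ := le_sup_left
    set A₁ := S.filter (fun T => T ≠ T' ∧ T ≤ U₁) with hA₁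
    set F₁ := S.filter (fun T => ¬ T ≤ U₁) with hF₁
    have hcardS : S.card = 1 + A₁.card + F₁.card := by
      have h1 : (S.filter (fun T => T ≤ U₁)).card + F₁.card = S.card :=
        Finset.card_filter_add_card_filter_not (s := S) (fun T => T ≤ U₁)
      have h2 : S.filter (fun T => T ≤ U₁) = insert T' A₁ := by
        ext T
        simp only [Finset.mem_filter, Finset.mem_insert, hA₁]
        constructor
        · rintro ⟨h3, h4⟩
          by_cases he : T = T'
          · exact Or.inl he
          · exact Or.inr ⟨h3, he, h4⟩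
        · rintro (rfl | ⟨h3, _, h4⟩)
          · exact ⟨hT', hT'U₁⟩
          · exact ⟨h3, h4⟩
      have h3 : T' ∉ A₁ := by
        simp [hA₁]
      rw [h2, Finset.card_insert_of_notMem h3] at h1
      omega
    have hF₁card : F₁.card ≤ k := by omega
    have hm : 2 * F₁.card ≤ U₁.relIndex N := by
      apply ih F₁ U₁ hF₁card hU₁N
      · intro T hT
        exact hP T (Finset.mem_filter.mp hT).1
      · intro T hT
        exact (Finset.mem_filter.mp hT).2
      · intro T₁ h₁ T₂ h₂
        exact hcomm T₁ (Finset.mem_filter.mp h₁).1 T₂ (Finset.mem_filter.mp h₂).1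
    have hmpos : 1 ≤ U₁.relIndex N := by
      apply Nat.pos_of_ne_zero
      change (U₁.subgroupOf N).index ≠ 0
      exact Subgroup.index_ne_zero_of_finite
    -- the lower bound for `y'`
    have hy : 2 * (1 + A₁.card) ≤ U.relIndex U₁ := by
      rcases A₁.eq_empty_or_nonempty with hA0 | hA
      · -- `a = 0`
        obtain ⟨t', ht', hnt⟩ : ∃ t' ∈ T', t' ∉ U := by
          by_contra hc
          push Not at hc
          exact hnot T' hT' hc
        have hne : (1 : X) ≠ t' := by
          rintro rfl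
          exact hnt U.one_mem
        have := card_le_relIndex (U := U) (V := U₁) {1, t'}
          (by
            intro x hx
            simp only [Finset.mem_insert, Finset.mem_singleton] at hx
            rcases hx with rfl | rfl
            · exact U₁.one_mem
            · exact hT'U₁ ht')
          (by
            intro x hx y hy hxy
            simp only [Finset.mem_insert, Finset.mem_singleton] at hx hy
            rcases hx with rfl | rfl <;> rcases hy with rfl | rfl
            · rfl
            · simp only [inv_one, one_mul] at hxy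
              exact absurd hxy hnt
            · simp only [mul_one] at hxy
              exact absurd (by simpa using U.inv_mem hxy) hnt
            · rfl)
        rw [Finset.card_pair hne] at this
        rw [hA0]
        simpa using this
      · -- `a ≥ 1`
        have hAmem : ∀ T ∈ A₁, T ∈ S ∧ T ≠ T' ∧ T ≤ U₁ := by
          intro T hT
          have := Finset.mem_filter.mp hT
          exact ⟨this.1, this.2.1, this.2.2⟩
        -- `T ⊓ U = ⊥`
        have hinf : ∀ T ∈ A₁, ∀ v ∈ T, v ∈ U → v = 1 := by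
          intro T hT
          obtain ⟨hTS, hTne, hTle⟩ := hAmem T hT
          have hPT := hP T hTS
          have hV : (T ⊓ U) = ⊥ ∨ (T ⊓ U) = T := by
            apply hPT.simple _ inf_le_left
            intro s hs v hv
            obtain ⟨hvT, hvU⟩ := Subgroup.mem_inf.mp hv
            obtain ⟨t', ht', u, hu, rfl⟩ := mem_sup_mul hnorm (hTle hs)
            have h1 : u * v * u⁻¹ ∈ T := hPT.inv u (hUN hu) v hvT
            have h2 : t' * (u * v * u⁻¹) = (u * v * u⁻¹) * t' :=
              (hcomm T' hT' T hTS (Ne.symm hTne) t' ht' _ h1)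
            have h3 : t' * u * v * (t' * u)⁻¹ = u * v * u⁻¹ := by
              calc t' * u * v * (t' * u)⁻¹ = (t' * (u * v * u⁻¹)) * t'⁻¹ := by group
                _ = _ := by rw [h2]; group
            rw [h3]
            exact Subgroup.mem_inf.mpr ⟨h1, U.mul_mem (U.mul_mem hu hvU) (U.inv_mem hu)⟩
          intro v hvT hvU
          rcases hV with h1 | h1
          · have : v ∈ T ⊓ U := Subgroup.mem_inf.mpr ⟨hvT, hvU⟩
            rw [h1] at this
            exact this
          · exfalso
            exact hnot T hTS (h1 ▸ inf_le_right)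
        -- the key lemma
        have hkey : ∀ T₁ ∈ A₁, ∀ T₂ ∈ A₁, T₁ ≠ T₂ → ∀ t₁ ∈ T₁, ∀ t₂ ∈ T₂, t₁⁻¹ * t₂ ∈ U →
            t₁ = 1 ∧ t₂ = 1 := by
          intro T₁ h₁ T₂ h₂ hne t₁ ht₁ t₂ ht₂ hx
          obtain ⟨h1S, h1ne, h1le⟩ := hAmem T₁ h₁
          obtain ⟨h2S, h2ne, h2le⟩ := hAmem T₂ h₂
          have hP1 := hP T₁ h1S
          have hP2 := hP T₂ h2S
          have hcen : t₁⁻¹ = 1 := by
            apply hP1.cen _ (T₁.inv_mem ht₁)
            intro s hs
            -- `[s, t₁⁻¹] ∈ T₁ ⊓ U`
            obtain ⟨t', ht', u, hu, hsu⟩ := mem_sup_mul hnorm (h1le hs)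
            have h3 : u * (t₁⁻¹ * t₂) * u⁻¹ ∈ U := U.mul_mem (U.mul_mem hu hx) (U.inv_mem hu)
            have e1 : u * (t₁⁻¹ * t₂) * u⁻¹ = (u * t₁⁻¹ * u⁻¹) * (u * t₂ * u⁻¹) := by group
            have h4 : u * t₁⁻¹ * u⁻¹ ∈ T₁ := hP1.inv u (hUN hu) _ (T₁.inv_mem ht₁)
            have h5 : u * t₂ * u⁻¹ ∈ T₂ := hP2.inv u (hUN hu) _ ht₂
            have c1 := hcomm T' hT' T₁ h1S (Ne.symm h1ne) t' ht' _ h4
            have c2 := hcomm T' hT' T₂ h2S (Ne.symm h2ne) t' ht' _ h5
            have h6 : s * (t₁⁻¹ * t₂) * s⁻¹ = u * (t₁⁻¹ * t₂) * u⁻¹ := by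
              rw [hsu, e1]
              calc t' * u * (t₁⁻¹ * t₂) * (t' * u)⁻¹
                  = t' * (u * t₁⁻¹ * u⁻¹) * (u * t₂ * u⁻¹) * t'⁻¹ := by group
                _ = (u * t₁⁻¹ * u⁻¹) * (t' * (u * t₂ * u⁻¹)) * t'⁻¹ := by rw [c1]; group
                _ = (u * t₁⁻¹ * u⁻¹) * ((u * t₂ * u⁻¹) * t') * t'⁻¹ := by rw [c2]
                _ = _ := by group
            have c3 : s * t₂ = t₂ * s := hcomm T₁ h1S T₂ h2S hne s hs t₂ ht₂
            have h7 : s * t₁⁻¹ * s⁻¹ * t₁ ∈ U := by
              have h8 : s * (t₁⁻¹ * t₂) * s⁻¹ * (t₁⁻¹ * t₂)⁻¹ ∈ U := by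
                rw [h6]
                exact U.mul_mem h3 (U.inv_mem hx)
              have e2 : s * (t₁⁻¹ * t₂) * s⁻¹ * (t₁⁻¹ * t₂)⁻¹ = s * t₁⁻¹ * s⁻¹ * t₁ := by
                calc s * (t₁⁻¹ * t₂) * s⁻¹ * (t₁⁻¹ * t₂)⁻¹
                    = s * t₁⁻¹ * (t₂ * s⁻¹ * t₂⁻¹) * t₁ := by group
                  _ = s * t₁⁻¹ * (s⁻¹ * (s * t₂) * s⁻¹ * t₂⁻¹) * t₁ := by group
                  _ = s * t₁⁻¹ * (s⁻¹ * (t₂ * s) * s⁻¹ * t₂⁻¹) * t₁ := by rw [c3]
                  _ = _ := by group
              rwa [e2] at h8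
            have h9 : s * t₁⁻¹ * s⁻¹ * t₁ ∈ T₁ :=
              T₁.mul_mem (T₁.mul_mem (T₁.mul_mem hs (T₁.inv_mem ht₁)) (T₁.inv_mem hs)) ht₁
            have h10 := hinf T₁ h₁ _ h9 h7
            have h11 : s * t₁⁻¹ * s⁻¹ = t₁⁻¹ := by
              have := mul_eq_one_iff_eq_inv.mp h10
              exact this
            calc s * t₁⁻¹ = s * t₁⁻¹ * s⁻¹ * s := by group
              _ = _ := by rw [h11]
          have h1 : t₁ = 1 := by simpa using hcen
          subst h1
          refine ⟨rfl, ?_⟩
          apply hinf T₂ h₂ _ ht₂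
          simpa using hx
        -- the witnesses
        have hw : ∀ T : Subgroup X, T ∈ A₁ → ∃ a ∈ T, ∃ b ∈ T, a * b ≠ b * a := by
          intro T hT
          exact (hP T (hAmem T hT).1).exists_noncomm
        choose! a ha b hb hab using hw
        let P : Subgroup X → Finset X := fun T => {a T, b T, a T * b T}
        have hPne : ∀ T ∈ A₁, ∀ x ∈ P T, x ∈ T ∧ x ≠ 1 := by
          intro T hT x hx
          have hab' := hab T hT
          simp only [P, Finset.mem_insert, Finset.mem_singleton] at hx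
          rcases hx with rfl | rfl | rfl
          · refine ⟨ha T hT, ?_⟩
            intro h1
            apply hab'
            rw [h1]
            simp
          · refine ⟨hb T hT, ?_⟩
            intro h1
            apply hab'
            rw [h1]
            simp
          · refine ⟨T.mul_mem (ha T hT) (hb T hT), ?_⟩
            intro h1
            apply hab'
            rw [h1]
            have : b T = (a T)⁻¹ := eq_inv_of_mul_eq_one_right h1
            rw [this]
            simp
        have hPcard : ∀ T ∈ A₁, (P T).card = 3 := by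
          intro T hT
          have hab' := hab T hT
          have h1 : a T ≠ b T := by
            intro h
            apply hab'
            rw [h]
          have h2 : a T ≠ a T * b T := by
            intro h
            have : b T = 1 := by simpa using h.symm
            apply hab'
            rw [this]
            simp
          have h3 : b T ≠ a T * b T := by
            intro h
            have : a T = 1 := by simpa using h.symm
            apply hab'
            rw [this]
            simp
          simp only [P]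
          rw [Finset.card_insert_of_notMem, Finset.card_pair h3]
          simp [h1, h2]
        have hdisj : (A₁ : Set (Subgroup X)).PairwiseDisjoint P := by
          intro T₁ h₁ T₂ h₂ hne
          rw [Function.onFun, Finset.disjoint_left]
          intro x hx1 hx2
          obtain ⟨hxT1, hx1ne⟩ := hPne T₁ h₁ x hx1
          obtain ⟨hxT2, -⟩ := hPne T₂ h₂ x hx2
          apply hx1ne
          apply (hP T₁ (hAmem T₁ h₁).1).cen x hxT1
          intro s hs
          exact hcomm T₁ (hAmem T₁ h₁).1 T₂ (hAmem T₂ h₂).1 hne s hs x hxT2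
        have hbi : (A₁.biUnion P).card = 3 * A₁.card := by
          rw [Finset.card_biUnion hdisj, Finset.sum_congr rfl hPcard]
          simp [mul_comm]
        have h1not : (1 : X) ∉ A₁.biUnion P := by
          intro h1
          obtain ⟨T, hT, hx⟩ := Finset.mem_biUnion.mp h1
          exact (hPne T hT _ hx).2 rfl
        have hEc : (insert (1 : X) (A₁.biUnion P)).card = 3 * A₁.card + 1 := by
          rw [Finset.card_insert_of_notMem h1not, hbi]
        have := card_le_relIndex (U := U) (V := U₁) (insert (1 : X) (A₁.biUnion P))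
          (by
            intro x hx
            rcases Finset.mem_insert.mp hx with rfl | hx
            · exact U₁.one_mem
            · obtain ⟨T, hT, hx⟩ := Finset.mem_biUnion.mp hx
              exact (hAmem T hT).2.2 (hPne T hT x hx).1)
          (by
            intro x hx y hy hxy
            rcases Finset.mem_insert.mp hx with rfl | hx <;>
              rcases Finset.mem_insert.mp hy with rfl | hy
            · rfl
            · obtain ⟨T, hT, hy⟩ := Finset.mem_biUnion.mp hy
              have h2 := (hPne T hT y hy)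
              exact absurd (hinf T hT y h2.1 (by simpa using hxy)) h2.2
            · obtain ⟨T, hT, hx⟩ := Finset.mem_biUnion.mp hx
              have h2 := (hPne T hT x hx)
              exact absurd (hinf T hT x h2.1 (by simpa using U.inv_mem hxy)) h2.2
            · obtain ⟨T₁, h₁, hx⟩ := Finset.mem_biUnion.mp hx
              obtain ⟨T₂, h₂, hy⟩ := Finset.mem_biUnion.mp hy
              have hx' := hPne T₁ h₁ x hx
              have hy' := hPne T₂ h₂ y hy
              by_cases he : T₁ = T₂
              · subst he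
                have := hinf T₁ h₁ _ (T₁.mul_mem (T₁.inv_mem hx'.1) hy'.1) hxy
                exact (inv_mul_eq_one.mp this)
              · exact absurd (hkey T₁ h₁ T₂ h₂ he x hx'.1 y hy'.1 hxy).1 hx'.2)
        rw [hEc] at this
        have hApos : 1 ≤ A₁.card := Finset.card_pos.mpr hA
        omega
    have hprod := Subgroup.relIndex_mul_relIndex U U₁ N hUU₁ hU₁N
    rw [← hprod, hcardS]
    rcases Nat.eq_zero_or_pos F₁.card with h0 | hpos
    · rw [h0]
      nlinarith
    · have h2m : 2 ≤ U₁.relIndex N := by omega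
      have h2y : 2 ≤ U.relIndex U₁ := by omega
      nlinarith

end Cfsg.Agent.Lib.CompLen
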