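import Mathlib
import Cfsg.Agent.Lib.CompLen.Basic
import Cfsg.Agent.Lib.CompLen.Piece
import Cfsg.Agent.Lib.Perm.Derange

/-!
# The simple factors of a nonabelian minimal normal subgroup
-/

set_option autoImplicit false
set_option linter.style.haveILetI false

namespace Cfsg.Agent.Lib.CompLen

open Cfsg.Agent.Lib.Solvable.MinimalNormal
open Cfsg.Agent.Lib.Perm.Derange

variable {G : Type*} [Group G]

theorem exists_isMinInv_self [Finite G] {N : Subgroup G} (hN : IsMinNormal N) :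
    ∃ T, IsMinInv N T := by
  haveI := hN.normal
  let S : Set (Subgroup G) :=
    {M | M ≤ N ∧ M ≠ ⊥ ∧ ∀ n ∈ N, ∀ k ∈ M, n * k * n⁻¹ ∈ M}
  have hS : S.Nonempty := ⟨N, le_rfl, hN.ne_bot, fun n _ k hk => hN.normal.conj_mem k hk n⟩
  obtain ⟨M, hMS, hmin⟩ : ∃ M ∈ S, ∀ M' ∈ S, Nat.card M ≤ Nat.card M' :=
    Set.exists_min_image S (fun M : Subgroup G => Nat.card M) (Set.toFinite S) hS
  refine ⟨M, ⟨hMS.1, hMS.2.1, hMS.2.2, ?_⟩⟩
  intro L hL hLne hLinv
  exact Subgroup.eq_of_le_of_card_ge hL (hmin L ⟨hL.trans hMS.1, hLne, hLinv⟩)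

theorem cj_eq_of_mem {N T : Subgroup G} (hinv : ∀ x ∈ N, ∀ t ∈ T, x * t * x⁻¹ ∈ T) {n : G}
    (hn : n ∈ N) : cj n T = T := by
  ext x
  rw [mem_cj]
  constructor
  · intro h
    have := hinv n hn _ h
    have e : n * (n⁻¹ * x * n) * n⁻¹ = x := by group
    rwa [e] at this
  · intro h
    have := hinv n⁻¹ (N.inv_mem hn) _ h
    simpa using this

/-- The family of simple factors. -/
theorem exists_family [Finite G] {N : Subgroup G} (hN : IsMinNormal N)
    (hna : ¬ ∀ x ∈ N, ∀ y ∈ N, x * y = y * x) :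
    ∃ F : Finset (Subgroup G), F.Nonempty ∧ (∀ T ∈ F, Piece N T) ∧
      (∀ T₁ ∈ F, ∀ T₂ ∈ F, T₁ ≠ T₂ → ∀ t₁ ∈ T₁, ∀ t₂ ∈ T₂, t₁ * t₂ = t₂ * t₁) ∧
      (⨆ T ∈ F, T) = N ∧ (∀ T₁ ∈ F, ∀ T₂ ∈ F, ∃ g : G, T₂ = cj g T₁) ∧
      (∀ T ∈ F, ∀ g : G, cj g T ∈ F) := by
  classical
  haveI := hN.normal
  haveI : Fintype G := Fintype.ofFinite G
  obtain ⟨T, hT⟩ := exists_isMinInv_self hN
  let F : Finset (Subgroup G) := Finset.univ.image (fun g : G => cj g T)
  have hFmem : ∀ T', T' ∈ F ↔ ∃ g : G, cj g T = T' := by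
    intro T'
    simp [F]
  have hFmin : ∀ T' ∈ F, IsMinInv N T' := by
    intro T' hT'
    obtain ⟨g, rfl⟩ := (hFmem _).mp hT'
    exact hT.cj g
  have hTF : T ∈ F := (hFmem T).mpr ⟨1, cj_one T⟩
  have hcj : ∀ T' ∈ F, ∀ g : G, cj g T' ∈ F := by
    intro T' hT' g
    obtain ⟨h, rfl⟩ := (hFmem _).mp hT'
    exact (hFmem _).mpr ⟨g * h, (cj_cj g h T).symm⟩
  have hcomm : ∀ T₁ ∈ F, ∀ T₂ ∈ F, T₁ ≠ T₂ → ∀ t₁ ∈ T₁, ∀ t₂ ∈ T₂, t₁ * t₂ = t₂ * t₁ :=
    fun T₁ h₁ T₂ h₂ hne => (hFmin T₁ h₁).comm_of_ne (hFmin T₂ h₂) hne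
  -- the supremum
  have hsup : (⨆ T' ∈ F, T') = N := by
    have hnorm : (⨆ T' ∈ F, T').Normal := by
      constructor
      intro x hx g
      have hle : (⨆ T' ∈ F, T') ≤ (⨆ T' ∈ F, T').comap (MulAut.conj g).toMonoidHom := by
        refine iSup₂_le ?_
        intro T' hT' t ht
        rw [Subgroup.mem_comap]
        have h1 : (MulAut.conj g).toMonoidHom t ∈ cj g T' := Subgroup.mem_map_of_mem _ ht
        exact (le_iSup₂_of_le (cj g T') (hcj T' hT' g) le_rfl : cj g T' ≤ ⨆ T' ∈ F, T') h1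
      have := hle hx
      simpa [Subgroup.mem_comap] using this
    have hle : (⨆ T' ∈ F, T') ≤ N := iSup₂_le fun T' hT' => (hFmin T' hT').le
    rcases hN.eq_bot_or_eq _ hnorm hle with hb | he
    · exfalso
      apply hT.ne_bot
      rw [eq_bot_iff, ← hb]
      exact le_iSup₂_of_le T hTF le_rfl
    · exact he
  have hmemN : ∀ T' ∈ F, T' ≤ (⨆ T' ∈ F, T') := fun T' hT' => le_iSup₂_of_le T' hT' le_rfl
  -- noncommutativity
  have hnc : ¬ ∀ a ∈ T, ∀ b ∈ T, a * b = b * a := by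
    intro hab
    apply hna
    have hall : ∀ T₁ ∈ F, ∀ T₂ ∈ F, ∀ t₁ ∈ T₁, ∀ t₂ ∈ T₂, t₁ * t₂ = t₂ * t₁ := by
      intro T₁ h₁ T₂ h₂ t₁ ht₁ t₂ ht₂
      by_cases he : T₁ = T₂
      · subst he
        obtain ⟨g, rfl⟩ := (hFmem _).mp h₁
        have h3 := hab _ (mem_cj.mp ht₁) _ (mem_cj.mp ht₂)
        have h4 : g * (g⁻¹ * t₁ * g * (g⁻¹ * t₂ * g)) * g⁻¹ = g * (g⁻¹ * t₂ * g * (g⁻¹ * t₁ * g)) * g⁻¹ := by
          rw [h3]
        have e1 : g * (g⁻¹ * t₁ * g * (g⁻¹ * t₂ * g)) * g⁻¹ = t₁ * t₂ := by group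
        have e2 : g * (g⁻¹ * t₂ * g * (g⁻¹ * t₁ * g)) * g⁻¹ = t₂ * t₁ := by group
        rwa [e1, e2] at h4
      · exact hcomm T₁ h₁ T₂ h₂ he t₁ ht₁ t₂ ht₂
    have h5 : (⨆ T' ∈ F, T') ≤ Subgroup.centralizer ((⨆ T' ∈ F, T' : Subgroup G) : Set G) := by
      refine iSup₂_le ?_
      intro T₁ h₁ t₁ ht₁
      have h6 : (⨆ T' ∈ F, T') ≤ Subgroup.centralizer ({t₁} : Set G) := by
        refine iSup₂_le ?_
        intro T₂ h₂ t₂ ht₂
        rw [Subgroup.mem_centralizer_iff]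
        intro h hh
        rw [Set.mem_singleton_iff] at hh
        subst hh
        exact hall T₁ h₁ T₂ h₂ h ht₁ t₂ ht₂
      rw [Subgroup.mem_centralizer_iff]
      intro h hh
      have := Subgroup.mem_centralizer_iff.mp (h6 hh) t₁ rfl
      exact this.symm
    intro x hx y hy
    rw [← hsup] at hx hy
    exact (Subgroup.mem_centralizer_iff.mp (h5 hy) x hx)
  have hncF : ∀ T' ∈ F, ¬ ∀ a ∈ T', ∀ b ∈ T', a * b = b * a := by
    intro T' hT' hab
    obtain ⟨g, rfl⟩ := (hFmem _).mp hT'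
    apply hnc
    intro x hx y hy
    have h1 : g * x * g⁻¹ ∈ cj g T := by
      rw [mem_cj]
      simpa [mul_assoc] using hx
    have h2 : g * y * g⁻¹ ∈ cj g T := by
      rw [mem_cj]
      simpa [mul_assoc] using hy
    have h3 := hab _ h1 _ h2
    have e1 : g * x * g⁻¹ * (g * y * g⁻¹) = g * (x * y) * g⁻¹ := by group
    have e2 : g * y * g⁻¹ * (g * x * g⁻¹) = g * (y * x) * g⁻¹ := by group
    rw [e1, e2] at h3
    exact mul_left_cancel (mul_right_cancel h3)
  refine ⟨F, ⟨T, hTF⟩, ?_, hcomm, hsup, ?_, hcj⟩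
  · intro T' hT'
    have hm := hFmin T' hT'
    refine ⟨hm.le, hm.ne_bot, hm.inv, ?_, ?_⟩
    · intro V hV hinv
      by_cases hVb : V = ⊥
      · exact Or.inl hVb
      right
      apply hm.min V hV hVb
      have hnormzr : (⨆ T' ∈ F, T') ≤ Subgroup.normalizer (V : Set G) := by
        refine iSup₂_le ?_
        intro T₂ h₂ t₂ ht₂
        rw [Subgroup.mem_normalizer_iff]
        intro h
        by_cases he : T₂ = T'
        · subst he
          constructor
          · intro hh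
            exact hinv t₂ ht₂ h hh
          · intro hh
            have := hinv t₂⁻¹ (T₂.inv_mem ht₂) _ hh
            simpa [mul_assoc] using this
        · constructor
          · intro hh
            have := hcomm T₂ h₂ T' hT' he t₂ ht₂ h (hV hh)
            rw [this]
            simpa [mul_assoc] using hh
          · intro hh
            have h3 : t₂ * h * t₂⁻¹ ∈ T' := hV hh
            have := hcomm T₂ h₂ T' hT' he t₂⁻¹ (T₂.inv_mem ht₂) _ h3
            have h4 : h = t₂⁻¹ * (t₂ * h * t₂⁻¹) * t₂ := by group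
            rw [h4, this]
            simpa [mul_assoc] using hh
      intro n hn k hk
      rw [← hsup] at hn
      exact (Subgroup.mem_normalizer_iff.mp (hnormzr hn) k).mp hk
    · intro t ht hs
      exact center_trivial_of_min N T' hm.inv hm.min (hncF T' hT') t ht (fun s hs' => (hs s hs').symm)
  · intro T₁ h₁ T₂ h₂
    obtain ⟨g₁, rfl⟩ := (hFmem _).mp h₁
    obtain ⟨g₂, rfl⟩ := (hFmem _).mp h₂
    refine ⟨g₂ * g₁⁻¹, ?_⟩
    rw [cj_cj]
    simp

/-- A piece is a simple group. -/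
theorem Piece.isSimple {N T : Subgroup G} (h : Piece N T) : IsSimpleGroup T := by
  haveI : Nontrivial T := by
    obtain ⟨a, ha, b, hb, hab⟩ := h.exists_noncomm
    refine ⟨⟨⟨a, ha⟩, ⟨b, hb⟩, ?_⟩⟩
    intro he
    apply hab
    have : a = b := congrArg Subtype.val he
    rw [this]
  refine ⟨?_⟩
  intro H hH
  have h1 := h.simple (H.map T.subtype) (Subgroup.map_subtype_le H) (by
    rintro t ht _ ⟨v, hv, rfl⟩
    refine ⟨⟨t, ht⟩ * v * (⟨t, ht⟩ : T)⁻¹, hH.conj_mem v hv _, rfl⟩)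
  rcases h1 with h1 | h1
  · left
    rw [eq_bot_iff]
    intro x hx
    have h2 : (x : G) ∈ H.map T.subtype := ⟨x, hx, rfl⟩
    rw [h1, Subgroup.mem_bot] at h2
    exact Subtype.ext h2
  · right
    rw [eq_top_iff]
    intro x _
    have h2 : (x : G) ∈ H.map T.subtype := by
      rw [h1]
      exact x.2
    obtain ⟨y, hy, hyx⟩ := h2
    have : y = x := Subtype.ext hyx
    rwa [← this]

/-- Chains in `N` are bounded by the number of factors. -/
theorem chain_le_card [Finite G] {N : Subgroup G} {F : Finset (Subgroup G)}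
    (hP : ∀ T ∈ F, Piece N T) (hsup : (⨆ T ∈ F, T) = N) (A : Subgroup N) (l : ℕ)
    (hc : ChainFrom A l) : l ≤ F.card := by
  classical
  refine chain_le_of_family F.card N (F.image (fun T : Subgroup G => T.subgroupOf N)) Finset.card_image_le ?_ ?_ ?_
    A l hc
  · intro U hU
    obtain ⟨T, hT, rfl⟩ := Finset.mem_image.mp hU
    constructor
    intro n hn g
    rw [Subgroup.mem_subgroupOf] at hn ⊢
    exact (hP T hT).inv g g.2 n hn
  · intro U hU B l' hc'
    obtain ⟨T, hT, rfl⟩ := Finset.mem_image.mp hU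
    haveI := (hP T hT).isSimple
    let e : T ≃* T.subgroupOf N := (Subgroup.subgroupOfEquivOfLe (hP T hT).le).symm
    exact chain_le_of_surjective e.toMonoidHom e.surjective (fun A' l'' hc'' => hc''.le_one) B l' hc'
  · rw [eq_top_iff]
    intro x _
    have hx : (x : G) ∈ (⨆ T ∈ F, T) := by
      rw [hsup]
      exact x.2
    have hle : (⨆ T ∈ F, T) ≤
        (⨆ U ∈ F.image (fun T : Subgroup G => T.subgroupOf N), U).map N.subtype := by
      refine iSup₂_le ?_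
      intro T hT t ht
      have h1 : (⟨t, (hP T hT).le ht⟩ : N) ∈ T.subgroupOf N := ht
      have h2 : T.subgroupOf N ∈ F.image (fun T : Subgroup G => T.subgroupOf N) :=
        Finset.mem_image.mpr ⟨T, hT, rfl⟩
      exact ⟨_, (le_iSup₂_of_le (T.subgroupOf N) h2 le_rfl :
        T.subgroupOf N ≤ ⨆ U ∈ F.image (fun T : Subgroup G => T.subgroupOf N), U) h1, rfl⟩
    obtain ⟨y, hy, hyx⟩ := hle hx
    have : y = x := Subtype.ext hyx
    rwa [← this]

end Cfsg.Agent.Lib.CompLen
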