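import Mathlib
import Cfsg.Agent.Lib.CompLen.Basic
import Cfsg.Agent.Lib.CompLen.Frame
import Cfsg.Agent.Lib.CompLen.Piece
import Cfsg.Agent.Lib.CompLen.Fam
import Cfsg.Agent.Lib.CompLen.Split
import Cfsg.Agent.Lib.Perm.Basic

/-!
# Orbits of the simple factors of a transitive nonabelian minimal normal subgroup
-/

set_option autoImplicit false
set_option linter.style.haveILetI false

universe v

namespace Cfsg.Agent.Lib.CompLen

open MulAction Cfsg.Agent.Lib.Perm.Basic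
open Cfsg.Agent.Lib.Perm.Derange

variable {G : Type*} {Ω : Type*} [Group G] [MulAction G Ω]

/-- The orbit of `a` under `T`. -/
def Yo (a : Ω) (T : Subgroup G) : Set Ω := {x | ∃ t ∈ T, t • a = x}

theorem mem_Yo_self (a : Ω) (T : Subgroup G) : a ∈ Yo a T := ⟨1, T.one_mem, one_smul _ _⟩

theorem smul_mem_Yo {a : Ω} {T : Subgroup G} {t : G} (ht : t ∈ T) {x : Ω} (hx : x ∈ Yo a T) :
    t • x ∈ Yo a T := by
  obtain ⟨t', ht', rfl⟩ := hx
  exact ⟨t * t', T.mul_mem ht ht', mul_smul _ _ _⟩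

theorem Yo_cj {a : Ω} {s : G} (hs : s • a = a) (T : Subgroup G) :
    Yo a (cj s T) = (fun x => s • x) '' Yo a T := by
  have hs' : s⁻¹ • a = a := by
    conv_lhs => rw [← hs]
    rw [inv_smul_smul]
  ext x
  constructor
  · rintro ⟨t, ht, rfl⟩
    refine ⟨(s⁻¹ * t * s) • a, ⟨_, mem_cj.mp ht, rfl⟩, ?_⟩
    change s • ((s⁻¹ * t * s) • a) = t • a
    rw [← mul_smul]
    simp only [mul_assoc, mul_inv_cancel_left]
    rw [mul_smul, hs]
  · rintro ⟨_, ⟨t, ht, rfl⟩, rfl⟩
    refine ⟨s * t * s⁻¹, mem_cj.mpr (by simpa [mul_assoc] using ht), ?_⟩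
    change (s * t * s⁻¹) • a = s • (t • a)
    rw [mul_smul, mul_smul, hs']

theorem ncard_Yo_cj {a : Ω} {s : G} (hs : s • a = a) (T : Subgroup G) :
    (Yo a (cj s T)).ncard = (Yo a T).ncard := by
  rw [Yo_cj hs]
  exact Set.ncard_image_of_injective _ (MulAction.injective s)

/-- All factors are conjugate under the stabilizer. -/
theorem exists_stab_conj {N T₁ T₂ : Subgroup G} [IsPretransitive N Ω] (a : Ω) {g : G}
    (hg : T₂ = cj g T₁) (hinv : ∀ s : G, ∀ x ∈ N, ∀ t ∈ cj s T₁, x * t * x⁻¹ ∈ cj s T₁) :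
    ∃ s : G, s • a = a ∧ T₂ = cj s T₁ := by
  obtain ⟨n, hn, s, hs, rfl⟩ := exists_mem_mul_mem_stabilizer N a g
  refine ⟨s, hs, ?_⟩
  rw [hg, ← cj_cj, cj_eq_of_mem (hinv s) hn]

/-- A group element fixing the orbit of a factor commutes with it. -/
theorem comm_of_fix {N T : Subgroup G} (hP : Piece N T) {a : Ω} (hmv : ¬ T ≤ stabilizer G a) {g : G}
    (hfix : ∀ x ∈ Yo a T, g • x = x)
    (hF : cj g T = T ∨ ∀ t ∈ T, ∀ s ∈ cj g T, t * s = s * t) :
    ∀ t ∈ T, g * t = t * g := by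
  let V : Subgroup G :=
    { carrier := {v | v ∈ T ∧ ∀ x ∈ Yo a T, v • x = x}
      mul_mem' := by
        rintro v w ⟨hv, hv'⟩ ⟨hw, hw'⟩
        refine ⟨T.mul_mem hv hw, fun x hx => ?_⟩
        rw [mul_smul, hw' x hx, hv' x hx]
      one_mem' := ⟨T.one_mem, fun x _ => one_smul _ _⟩
      inv_mem' := by
        rintro v ⟨hv, hv'⟩
        refine ⟨T.inv_mem hv, fun x hx => ?_⟩
        conv_lhs => rw [← hv' x hx]
        rw [inv_smul_smul] }
  have hV : V = ⊥ := by
    refine (hP.simple V (fun v hv => hv.1) ?_).resolve_right ?_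
    · rintro t ht v ⟨hv, hv'⟩
      refine ⟨T.mul_mem (T.mul_mem ht hv) (T.inv_mem ht), fun x hx => ?_⟩
      rw [mul_smul, mul_smul, hv' _ (smul_mem_Yo (T.inv_mem ht) hx), smul_inv_smul]
    · intro hV
      apply hmv
      intro t ht
      have h1 : t ∈ V := by rw [hV]; exact ht
      exact h1.2 a (mem_Yo_self a T)
  have hVmem : ∀ v ∈ T, (∀ x ∈ Yo a T, v • x = x) → v = 1 := by
    intro v hv hv'
    have h1 : v ∈ V := ⟨hv, hv'⟩
    rw [hV] at h1
    exact h1
  have hfix' : ∀ x ∈ Yo a T, g⁻¹ • x = x := by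
    intro x hx
    conv_lhs => rw [← hfix x hx]
    rw [inv_smul_smul]
  have hact : ∀ t ∈ T, ∀ x ∈ Yo a T, (g * t * g⁻¹) • x = t • x := by
    intro t ht x hx
    rw [mul_smul, mul_smul, hfix' x hx, hfix _ (smul_mem_Yo ht hx)]
  rcases hF with h | h
  · intro t ht
    have h1 : g * t * g⁻¹ ∈ T := by
      rw [← h]
      exact ⟨t, ht, rfl⟩
    have h2 : (g * t * g⁻¹) * t⁻¹ = 1 := by
      apply hVmem _ (T.mul_mem h1 (T.inv_mem ht))
      intro x hx
      rw [mul_smul, hact t ht _ (smul_mem_Yo (T.inv_mem ht) hx), smul_inv_smul]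
    have h3 : g * t * g⁻¹ = t := by
      rwa [mul_inv_eq_one] at h2
    rw [mul_inv_eq_iff_eq_mul] at h3
    exact h3
  · exfalso
    obtain ⟨s, hs, t, ht, hne⟩ := hP.exists_noncomm
    apply hne
    have h1 : g * t * g⁻¹ ∈ cj g T := ⟨t, ht, rfl⟩
    have hc : s * (g * t * g⁻¹) = (g * t * g⁻¹) * s := h s hs _ h1
    have hcs : ∀ x ∈ Yo a T, (s * t * s⁻¹) • x = t • x := by
      intro x hx
      have hx' := smul_mem_Yo (T.inv_mem hs) hx
      rw [mul_smul, mul_smul, ← hact t ht _ hx', ← mul_smul s, hc, mul_smul, smul_inv_smul,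
        hact t ht x hx]
    have h2 : (s * t * s⁻¹) * t⁻¹ = 1 := by
      apply hVmem _ (T.mul_mem (T.mul_mem (T.mul_mem hs ht) (T.inv_mem hs)) (T.inv_mem ht))
      intro x hx
      rw [mul_smul, hcs _ (smul_mem_Yo (T.inv_mem ht) hx), smul_inv_smul]
    have h3 : s * t * s⁻¹ = t := by
      rwa [mul_inv_eq_one] at h2
    rw [mul_inv_eq_iff_eq_mul] at h3
    exact h3

/-- The index formula: the orbit of a factor is a block. -/
theorem block_index [Finite G] {N T : Subgroup G} (hP : Piece N T) [IsPretransitive N Ω] [Finite Ω]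
    (a : Ω) :
    Nat.card Ω = (Yo a T).ncard * (T ⊔ (N ⊓ stabilizer G a)).relIndex N := by
  set U : Subgroup G := N ⊓ stabilizer G a with hU
  have hUN : U ≤ N := inf_le_left
  have hU' : U ≤ T ⊔ U := le_sup_right
  have hU'N : T ⊔ U ≤ N := sup_le hP.le hUN
  have h1 : U.relIndex N = Nat.card Ω := by
    have e : U.subgroupOf N = stabilizer N a := by
      ext x
      rw [Subgroup.mem_subgroupOf, hU, Subgroup.mem_inf, mem_stabilizer_iff, mem_stabilizer_iff]
      constructor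
      · rintro ⟨-, h⟩
        exact h
      · intro h
        exact ⟨x.2, h⟩
    change (U.subgroupOf N).index = _
    rw [e, index_stabilizer_of_transitive]
  have h2 : U.relIndex (T ⊔ U) = (Yo a T).ncard := by
    have e : U.subgroupOf (T ⊔ U) = stabilizer (T ⊔ U : Subgroup G) a := by
      ext x
      rw [Subgroup.mem_subgroupOf, mem_stabilizer_iff]
      constructor
      · intro h
        exact h.2
      · intro h
        exact ⟨hU'N x.2, h⟩
    change (U.subgroupOf (T ⊔ U)).index = _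
    rw [e, index_stabilizer]
    congr 1
    ext x
    constructor
    · rintro ⟨⟨u, hu⟩, rfl⟩
      obtain ⟨t, ht, v, hv, rfl⟩ := mem_sup_mul (fun u hu t ht => hP.inv u (hUN hu) t ht) hu
      refine ⟨t, ht, ?_⟩
      have hva : v • a = a := hv.2
      change t • a = (t * v) • a
      rw [mul_smul, hva]
    · rintro ⟨t, ht, rfl⟩
      exact ⟨⟨t, (le_sup_left : T ≤ T ⊔ U) ht⟩, rfl⟩
  rw [← h1, ← h2]
  exact (Subgroup.relIndex_mul_relIndex U (T ⊔ U) N hU' hU'N).symm

/-- A factor is inside the block stabilizer iff its orbit is inside the block. -/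
theorem le_sup_iff {N T T' : Subgroup G} (hP : Piece N T) (hT' : T' ≤ N) (a : Ω) :
    T' ≤ T ⊔ (N ⊓ stabilizer G a) ↔ Yo a T' ⊆ Yo a T := by
  set U : Subgroup G := N ⊓ stabilizer G a with hU
  have hUN : U ≤ N := inf_le_left
  constructor
  · rintro h _ ⟨t', ht', rfl⟩
    obtain ⟨t, ht, v, hv, he⟩ := mem_sup_mul (fun u hu t ht => hP.inv u (hUN hu) t ht) (h ht')
    refine ⟨t, ht, ?_⟩
    have hva : v • a = a := hv.2
    rw [he, mul_smul, hva]
  · intro h t' ht'
    obtain ⟨t, ht, he⟩ := h ⟨t', ht', rfl⟩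
    have h1 : t⁻¹ * t' ∈ U := by
      refine ⟨N.mul_mem (N.inv_mem (hP.le ht)) (hT' ht'), ?_⟩
      change (t⁻¹ * t') • a = a
      rw [mul_smul, ← he, inv_smul_smul]
    have h2 : t' = t * (t⁻¹ * t') := by group
    rw [h2]
    exact Subgroup.mul_mem _ ((le_sup_left : T ≤ T ⊔ U) ht) ((le_sup_right : U ≤ T ⊔ U) h1)

/-- Two commuting factors intersect trivially. -/
theorem eq_one_of_commuting_eq {N T₁ T₂ : Subgroup G} (hP : Piece N T₁)
    (hc : ∀ t₁ ∈ T₁, ∀ t₂ ∈ T₂, t₁ * t₂ = t₂ * t₁) {x : G} (h1 : x ∈ T₁) (h2 : x ∈ T₂) : x = 1 :=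
  hP.cen x h1 fun s hs => hc s hs x h2

end Cfsg.Agent.Lib.CompLen
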