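import Mathlib
import Cfsg.Agent.Lib.CompLen.Yo

/-!
# The bound when a transitive nonabelian minimal normal subgroup exists
-/

set_option autoImplicit false
set_option linter.style.haveILetI false

universe v

namespace Cfsg.Agent.Lib.CompLen

open MulAction Cfsg.Agent.Lib.Perm.Basic
open Cfsg.Agent.Lib.Perm.Derange
open Cfsg.Agent.Lib.Solvable.MinimalNormal

theorem nonab_case {G : Type*} {Ω : Type v} [Group G] [Finite G] [MulAction G Ω] [FaithfulSMul G Ω]
    [Finite Ω] [Nontrivial Ω] {n : ℕ} (hn : Nat.card Ω = n) (hT : ∀ k < n, TT.{v} k) (N : Subgroup G)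
    (hN : IsMinNormal N) [IsPretransitive N Ω] (hna : ¬ ∀ x ∈ N, ∀ y ∈ N, x * y = y * x) (a : Ω)
    (B : Subgroup G) (l : ℕ) (hc : ChainFrom B l) : 3 * l + 4 ≤ 4 * n := by
  classical
  haveI := hN.normal
  haveI : Fintype Ω := Fintype.ofFinite Ω
  obtain ⟨F, ⟨T₀, hT₀⟩, hP, hcomm, hsup, hconj, hcj⟩ := exists_family hN hna
  -- all factors conjugate under the stabilizer
  have hst : ∀ T₁ ∈ F, ∀ T₂ ∈ F, ∃ s : G, s • a = a ∧ T₂ = cj s T₁ := by
    intro T₁ h₁ T₂ h₂
    obtain ⟨g, hg⟩ := hconj T₁ h₁ T₂ h₂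
    exact exists_stab_conj (N := N) a hg (fun s => (hP _ (hcj T₁ h₁ s)).inv)
  -- no factor fixes `a`
  have hmv : ∀ T' ∈ F, ¬ T' ≤ stabilizer G a := by
    intro T' hT' hle
    have hall : N ≤ stabilizer G a := by
      rw [← hsup]
      refine iSup₂_le ?_
      intro T₂ h₂
      obtain ⟨s, hs, rfl⟩ := hst T' hT' T₂ h₂
      intro x hx
      have h1 : (s⁻¹ * x * s) • a = a := hle (mem_cj.mp hx)
      rw [mul_smul, mul_smul, hs] at h1
      rw [mem_stabilizer_iff]
      have h2 := congrArg (fun z => s • z) h1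
      simp only [smul_inv_smul] at h2
      rwa [hs] at h2
    obtain ⟨b, hb⟩ := exists_ne a
    obtain ⟨m, hm, hma⟩ := exists_mem_smul_eq N a b
    exact hb (by rw [← hma]; exact hall hm)
  set y := (Yo a T₀).ncard with hy
  have hYcard : ∀ T' ∈ F, (Yo a T').ncard = y := by
    intro T' hT'
    obtain ⟨s, hs, rfl⟩ := hst T₀ hT₀ T' hT'
    exact ncard_Yo_cj hs T₀
  have hy0 : 1 ≤ y := by
    rw [hy, Nat.succ_le_iff, Set.ncard_pos]
    exact ⟨a, mem_Yo_self a T₀⟩
  have hk0 : 1 ≤ F.card := Finset.card_pos.mpr ⟨T₀, hT₀⟩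
  -- faithfulness
  have hfaith : ∀ g : G, g • a = a → (∀ T' ∈ F, ∀ x ∈ Yo a T', g • x = x) → g = 1 := by
    intro g hga hg
    apply eq_one_of_mem_centralizer_of_smul_eq N ?_ hga
    have hle : N ≤ Subgroup.centralizer ({g} : Set G) := by
      rw [← hsup]
      refine iSup₂_le ?_
      intro T' hT' t ht
      rw [Subgroup.mem_centralizer_iff]
      intro h hh
      rw [Set.mem_singleton_iff] at hh
      subst hh
      refine comm_of_fix (hP T' hT') (hmv T' hT') (hg T' hT') ?_ t ht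
      by_cases he : cj h T' = T'
      · exact Or.inl he
      · exact Or.inr (hcomm T' hT' _ (hcj T' hT' h) (Ne.symm he))
    rw [Subgroup.mem_centralizer_iff]
    intro h hh
    exact (Subgroup.mem_centralizer_iff.mp (hle hh) g rfl).symm
  obtain ⟨c, d, hl, ⟨A₁, hA₁⟩, A₂, hA₂, hd1⟩ := chain_split N a hc
  have hck : c ≤ F.card := chain_le_card hP hsup A₁ c hA₁
  -- the main branch
  have hmain : F.card * y ≤ n → 3 * l + 4 ≤ 4 * n := by
    intro hky
    let Λ : Set Ω := {x | x ≠ a ∧ ∃ T' ∈ F, x ∈ Yo a T'}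
    have hmul : F.card * y = F.card * (y - 1) + F.card := by
      rw [← Nat.mul_succ]
      congr 1
      omega
    have hΛne : Λ.Nonempty := by
      obtain ⟨t, ht, hta⟩ := Set.not_subset.mp (hmv T₀ hT₀)
      exact ⟨t • a, hta, T₀, hT₀, t, ht, rfl⟩
    have hΛcard : Λ.ncard ≤ F.card * (y - 1) := by
      have hsub : Λ ⊆ ↑(F.biUnion fun T' => ((Yo a T').toFinset.erase a)) := by
        rintro x ⟨hxa, T', hT', hx⟩
        simp only [Finset.coe_biUnion, Set.mem_iUnion]
        exact ⟨T', hT', by simpa [hxa] using hx⟩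
      refine (Set.ncard_le_ncard hsub (Finset.finite_toSet _)).trans ?_
      rw [Set.ncard_coe_finset]
      apply Finset.card_biUnion_le_card_mul
      intro T' hT'
      rw [Finset.card_erase_of_mem (by simpa using mem_Yo_self a T'), ← hYcard T' hT',
        Set.ncard_eq_toFinset_card']
    have hlt : Λ.ncard < n := by
      omega
    have h1 := bd_subset hT (stabilizer G a) Λ ?_ ?_ hΛne hlt A₂ d hA₂
    · omega
    · rintro g hg x ⟨hxa, T', hT', hx⟩
      have hg' : g • a = a := hg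
      refine ⟨?_, cj g T', hcj T' hT' g, ?_⟩
      · intro he
        apply hxa
        rw [← hg'] at he
        exact MulAction.injective g he
      · rw [Yo_cj hg']
        exact ⟨x, hx, rfl⟩
    · intro g hg hfix
      have hg' : g • a = a := hg
      apply hfaith g hg'
      intro T' hT' x hx
      by_cases hxa : x = a
      · rw [hxa, hg']
      · exact hfix x ⟨hxa, T', hT', hx⟩
  -- the regular branch
  have hreg : (∀ T' ∈ F, Yo a T' = Set.univ) → 2 ≤ F.card → 3 * l + 4 ≤ 4 * n := by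
    intro hu h2
    have hmemu : ∀ T' ∈ F, ∀ x : Ω, ∃ t ∈ T', t • a = x := by
      intro T' hT' x
      have : x ∈ Yo a T' := by rw [hu T' hT']; trivial
      exact this
    have htr : ∀ T' ∈ F, IsPretransitive T' Ω := by
      intro T' hT'
      apply isPretransitive_subgroup_of
      intro x z
      obtain ⟨t₁, ht₁, rfl⟩ := hmemu T' hT' x
      obtain ⟨t₂, ht₂, rfl⟩ := hmemu T' hT' z
      refine ⟨t₂ * t₁⁻¹, T'.mul_mem ht₂ (T'.inv_mem ht₁), ?_⟩
      rw [mul_smul, inv_smul_smul]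
    have hne1 : ∀ T' ∈ F, ∃ t ∈ T', t ≠ 1 := by
      intro T' hT'
      by_contra hcon
      push Not at hcon
      exact (hP T' hT').ne_bot (eq_bot_iff.mpr fun x hx => hcon x hx)
    have hk2 : F.card ≤ 2 := by
      by_contra hcon
      obtain ⟨T₁, h₁, T₂, h₂, T₃, h₃, h12, h13, h23⟩ := Finset.two_lt_card.mp (not_le.mp hcon)
      obtain ⟨t₂, ht₂, ht₂1⟩ := hne1 T₂ h₂
      obtain ⟨t₃, ht₃, he⟩ := hmemu T₃ h₃ (t₂ • a)
      haveI := htr T₁ h₁
      have hx : t₃⁻¹ * t₂ = 1 := by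
        apply eq_one_of_mem_centralizer_of_smul_eq T₁ ?_ (a := a) (by rw [mul_smul, ← he, inv_smul_smul])
        rw [Subgroup.mem_centralizer_iff]
        intro s hs
        have c2 := hcomm T₁ h₁ T₂ h₂ h12 s hs t₂ ht₂
        have c3 := hcomm T₁ h₁ T₃ h₃ h13 s hs t₃⁻¹ (T₃.inv_mem ht₃)
        rw [← mul_assoc, c3, mul_assoc, c2, mul_assoc]
      have hxe : t₃ = t₂ := inv_mul_eq_one.mp hx
      exact ht₂1 (eq_one_of_commuting_eq (hP T₂ h₂) (hcomm T₂ h₂ T₃ h₃ h23) ht₂ (hxe ▸ ht₃))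
    obtain ⟨T₁, h₁, T₂, h₂, h12⟩ := Finset.one_lt_card.mp (by omega : 1 < F.card)
    have hd2 : ChainFrom (⊥ : Subgroup (stabilizer G a)) (d + 1) := by
      apply hd1
      obtain ⟨t₁, ht₁, ht₁1⟩ := hne1 T₁ h₁
      obtain ⟨t₂, ht₂, he⟩ := hmemu T₂ h₂ (t₁ • a)
      refine ⟨t₂⁻¹ * t₁, N.mul_mem (N.inv_mem ((hP T₂ h₂).le ht₂)) ((hP T₁ h₁).le ht₁), ?_, ?_⟩
      · rw [mem_stabilizer_iff, mul_smul, ← he, inv_smul_smul]
      · intro hx
        have hxe : t₂ = t₁ := inv_mul_eq_one.mp hx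
        exact ht₁1 (eq_one_of_commuting_eq (hP T₁ h₁) (hcomm T₁ h₁ T₂ h₂ h12) ht₁ (hxe ▸ ht₂))
    have hcard : ({a}ᶜ : Set Ω).ncard + 1 = n := by
      have := Set.ncard_add_ncard_compl ({a} : Set Ω)
      rw [Set.ncard_singleton, hn] at this
      omega
    have h1 := bd_subset hT (stabilizer G a) ({a}ᶜ : Set Ω) ?_ ?_ ?_ (by omega) ⊥ (d + 1) hd2
    · omega
    · intro g hg x hx he
      apply hx
      have hg' : g • a = a := hg
      rw [Set.mem_singleton_iff] at he ⊢
      rw [← hg'] at he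
      exact MulAction.injective g he
    · intro g hg hfix
      have hg' : g • a = a := hg
      apply FaithfulSMul.eq_of_smul_eq_smul (α := Ω)
      intro x
      rw [one_smul]
      by_cases hxa : x = a
      · rw [hxa, hg']
      · exact hfix x hxa
    · obtain ⟨b, hb⟩ := exists_ne a
      exact ⟨b, hb⟩
  -- the dichotomy
  have hU'N : T₀ ⊔ (N ⊓ stabilizer G a) ≤ N := sup_le (hP T₀ hT₀).le inf_le_left
  have hbi : n = y * (T₀ ⊔ (N ⊓ stabilizer G a)).relIndex N := by
    rw [← hn]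
    exact block_index (hP T₀ hT₀) a
  by_cases hall : ∀ T' ∈ F, Yo a T' = Yo a T₀
  · have hle : N ≤ T₀ ⊔ (N ⊓ stabilizer G a) := by
      rw [← hsup]
      refine iSup₂_le ?_
      intro T' hT'
      rw [hsup, le_sup_iff (hP T₀ hT₀) (hP T' hT').le a, hall T' hT']
    have hu : Yo a T₀ = Set.univ := by
      have h1 := (le_sup_iff (hP T₀ hT₀) le_rfl a).mp hle
      apply Set.eq_univ_of_forall
      intro x
      obtain ⟨m, hm, hma⟩ := exists_mem_smul_eq N a x
      exact h1 ⟨m, hm, hma⟩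
    by_cases hk : 2 ≤ F.card
    · exact hreg (fun T' hT' => by rw [hall T' hT', hu]) hk
    · apply hmain
      have hk1 : F.card = 1 := by omega
      rw [hk1, hy, hu, Set.ncard_univ, hn, one_mul]
  · push Not at hall
    obtain ⟨T₂, h₂, hne⟩ := hall
    apply hmain
    set S₁ := F.filter (fun T' => Yo a T' ≠ Yo a T₀) with hS₁
    set C := F.filter (fun T' => ¬ Yo a T' ≠ Yo a T₀) with hC
    have hsum : S₁.card + C.card = F.card := Finset.card_filter_add_card_filter_not _
    have h2S := two_card_le_relIndex S₁.card S₁ (T₀ ⊔ (N ⊓ stabilizer G a)) le_rfl hU'N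
      (fun T hT => hP T (Finset.mem_of_mem_filter T hT))
      (by
        intro T hT hle
        have hTF := Finset.mem_of_mem_filter T hT
        have h1 := (le_sup_iff (hP T₀ hT₀) (hP T hTF).le a).mp hle
        apply (Finset.mem_filter.mp hT).2
        exact Set.eq_of_subset_of_ncard_le h1 (by rw [hYcard T hTF]))
      (fun T₁ h₁ T₃ h₃ => hcomm T₁ (Finset.mem_of_mem_filter T₁ h₁) T₃ (Finset.mem_of_mem_filter T₃ h₃))
    obtain ⟨s, hs, rfl⟩ := hst T₀ hT₀ T₂ h₂
    have hCS : C.card ≤ S₁.card := by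
      apply Finset.card_le_card_of_injOn (fun T' => cj s T')
      · intro T' hT'
        have hT'' := Finset.mem_coe.mp hT'
        have hTF := Finset.mem_of_mem_filter T' hT''
        have h1 : Yo a T' = Yo a T₀ := by
          have := (Finset.mem_filter.mp hT'').2
          simpa using this
        apply Finset.mem_coe.mpr
        refine Finset.mem_filter.mpr ⟨hcj T' hTF s, ?_⟩
        rw [Yo_cj hs, h1, ← Yo_cj hs]
        exact hne
      · intro T₁ _ T₃ _ he
        have h1 := congrArg (cj s⁻¹) he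
        simp only [cj_cj, inv_mul_cancel, cj_one] at h1
        exact h1
    rw [hbi]
    rw [Nat.mul_comm]
    apply Nat.mul_le_mul_left
    omega

end Cfsg.Agent.Lib.CompLen
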