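import Mathlib
import Cfsg.Agent.Lib.CompLen.NonAb
import Cfsg.Agent.Lib.CompLen.Ab

/-!
# Composition length of permutation groups: `3 l + 4 r ≤ 4 n`
-/

set_option autoImplicit false
set_option linter.style.haveILetI false

universe u v

namespace Cfsg.Agent.Lib.CompLen

open MulAction Cfsg.Agent.Lib.Perm.Basic
open Cfsg.Agent.Lib.Solvable.MinimalNormal

theorem primitive_bd {G : Type*} {Ω : Type v} [Group G] [Finite G] [MulAction G Ω]
    [FaithfulSMul G Ω] [Finite Ω] [Nontrivial Ω] [IsPreprimitive G Ω] {n : ℕ}
    (hn : Nat.card Ω = n) (hT : ∀ k < n, TT.{v} k) (a : Ω) (B : Subgroup G) (l : ℕ)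
    (hc : ChainFrom B l) : 3 * l + 4 ≤ 4 * n := by
  haveI : Nontrivial G := by
    obtain ⟨b, hb⟩ := exists_ne a
    obtain ⟨g, hg⟩ := exists_smul_eq G a b
    refine ⟨⟨g, 1, ?_⟩⟩
    rintro rfl
    rw [one_smul] at hg
    exact hb hg.symm
  obtain ⟨N, hN⟩ := exists_isMinNormal (G := G)
  haveI := hN.normal
  haveI : IsPretransitive N Ω := isPretransitive_of_normal_of_ne_bot N hN.ne_bot
  by_cases hab : ∀ x ∈ N, ∀ y ∈ N, x * y = y * x
  · exact ab_case hn N hab a B l hc
  · exact nonab_case hn hT N hN hab a B l hc

theorem all_TT : ∀ n, TT.{v} n := by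
  intro n
  induction n using Nat.strong_induction_on with
  | _ n hT =>
    intro Y _ X hn B l hc
    rcases isEmpty_or_nonempty Y with hY | ⟨⟨a⟩⟩
    · have h1 : Nat.card X = 1 := by
        haveI : Subsingleton (Equiv.Perm Y) := inferInstance
        exact Nat.card_unique
      have h2 := hc.two_pow'
      rw [h1] at h2
      have h3 : l = 0 := by
        by_contra hne
        have := Nat.pow_le_pow_right (by norm_num : 0 < 2) (Nat.pos_of_ne_zero hne)
        omega
      have h4 : orbs X Y = 0 := by
        haveI : IsEmpty (orbitRel.Quotient X Y) := by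
          constructor
          intro q
          induction q using Quotient.inductionOn' with
          | h y => exact hY.elim y
        exact Nat.card_of_isEmpty
      rw [h3, h4]
      omega
    · by_cases hO : orbit X a = Set.univ
      · haveI : Nonempty Y := ⟨a⟩
        haveI : IsPretransitive X Y := by
          constructor
          intro x z
          have hx : x ∈ orbit X a := by rw [hO]; trivial
          have hz : z ∈ orbit X a := by rw [hO]; trivial
          obtain ⟨g₁, rfl⟩ := hx
          obtain ⟨g₂, rfl⟩ := hz
          refine ⟨g₂ * g₁⁻¹, ?_⟩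
          change (g₂ * g₁⁻¹) • (g₁ • a) = g₂ • a
          rw [mul_smul, inv_smul_smul]
        have h1 : orbs X Y ≤ 1 := orbs_le_one
        rcases subsingleton_or_nontrivial Y with hs | hnt
        · have h2 : Nat.card X = 1 := by
            haveI : Subsingleton (Equiv.Perm Y) := inferInstance
            exact Nat.card_unique
          have h3 := hc.two_pow'
          rw [h2] at h3
          have h4 : l = 0 := by
            by_contra hne
            have := Nat.pow_le_pow_right (by norm_num : 0 < 2) (Nat.pos_of_ne_zero hne)
            omega
          have h5 : Nat.card Y = 1 := Nat.card_unique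
          rw [h4, h5]
          omega
        · by_cases hP : IsPreprimitive X Y
          · have := primitive_bd hn hT a B l hc
            omega
          · have hnc := mt (isCoatom_stabilizer_iff_preprimitive X a).mp hP
            unfold IsCoatom at hnc
            push Not at hnc
            have hne : stabilizer X a ≠ ⊤ := by
              intro hs
              obtain ⟨b, hb⟩ := exists_ne a
              obtain ⟨g, hg⟩ := exists_smul_eq X a b
              have h6 : g ∈ stabilizer X a := by rw [hs]; trivial
              have h7 : g • a = a := h6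
              exact hb (hg.symm.trans h7)
            obtain ⟨S, h1S, h2S⟩ := hnc hne
            exact step_imprim hn hT a S h1S h2S B l hc
      · exact step_intrans hn hT a hO B l hc

/-- **The bound on chains.** -/
theorem chain_bd {G : Type u} {Ω : Type v} [Group G] [MulAction G Ω] [FaithfulSMul G Ω] [Finite Ω]
    (B : Subgroup G) (l : ℕ) (hc : ChainFrom B l) :
    3 * l + 4 * Nat.card (orbitRel.Quotient G Ω) ≤ 4 * Nat.card Ω :=
  bd_of_range (all_TT.{v} (Nat.card Ω) Ω _ rfl) B l hc

end Cfsg.Agent.Lib.CompLen
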